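import Mathlib
import Cfsg.Agent.QF.Defs
import Cfsg.Agent.QF.Set
import Cfsg.Prelude.Def_Spor_J1

/-!
# S1817: the setting (plan in `stubs/notes/QS.md`)
-/

set_option autoImplicit false

namespace Cfsg.Agent.QS

open Cfsg Subgroup Cfsg.Agent.GT Cfsg.Agent.Inv Cfsg.Agent.Cmp Cfsg.Agent.QE Cfsg.Agent.QF
open scoped commutatorElement

universe u

variable {G : Type*} [Group G]

/-- `L` is a standard component of `C(z)`, `z ∈ Z(T)`, `T` a Sylow 2-subgroup. -/
structure St (T L : Subgroup G) (z : G) : Prop extends Ct T L z where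
  std : IsStandardSubgroup L
  nT : T ≤ NN L

theorem St.zK {T L : Subgroup G} {z : G} (h : St T L z) : z ∈ CC L :=
  fun l hl => (mem_C1.1 (h.comp.1 hl)).eq

end Cfsg.Agent.QS
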