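import Mathlib
import Cfsg.Agent.QS.Defs

/-!
# S1817: the facts used by the generic machine (plan in `stubs/Cfsg/Agent/QS/PLAN.md`)
-/

set_option autoImplicit false

namespace Cfsg.Agent.QS

open Cfsg Subgroup Cfsg.Agent.GT Cfsg.Agent.Inv Cfsg.Agent.Cmp Cfsg.Agent.QE Cfsg.Agent.QF
open scoped commutatorElement

universe u

/-! ### Abstract groups -/

section Abs

variable {X : Type*} [Group X]

/-- The subgroup generated by the fixed elements of order dividing `p`. -/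
def Yp (p : ℕ) (β : MulAut X) : Subgroup X := closure {x | β x = x ∧ x ^ p = 1}

variable (X) in
/-- A good prime. -/
structure Gp (p : ℕ) : Prop where
  pr : p.Prime
  p2 : p ≠ 2
  rk : PRankAtLeast p 2 X
  out : ∀ φ : MulAut X, φ ^ p = 1 → φ ∉ Inn X → PRankAtLeast p 3 ↥(Inn X ⊔ zpowers φ)

/-- `β` is conjugate under `X` to `v β`, with `v` an involution. -/
def Mv (β : MulAut X) (v : X) : Prop := orderOf v = 2 ∧ ∃ g : X, v = g * (β g)⁻¹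

variable (X) in
/-- Outer involutions. -/
def OO : Prop := ∀ β : MulAut X, β * β = 1 → β ∉ Inn X → ∀ f : fixedSubgroup β →* Out X,
  ∃ y : fixedSubgroup β, Mv β y ∧ f y = 1

/-- An involution of type S. -/
structure STy (p : ℕ) (y : X) (Z : Subgroup X) : Prop where
  y2 : orderOf y = 2
  sq : ∀ v ∈ Z, v * v = 1
  le : Z ≤ Yp p (MulAut.conj y)
  cz : Z ≤ CC (Yp p (MulAut.conj y))
  cen : ∀ β : MulAut X, Two β → (∀ x ∈ Yp p (MulAut.conj y), β x = x) → ∃ v ∈ Z, β = MulAut.conj v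
  tr : ∀ a ∈ Z, ∀ b ∈ Z, a ≠ 1 → b ≠ 1 → ∃ g ∈ NN Z, g * a * g⁻¹ = b
  four : 2 < Nat.card Z
  idx : ∃ C : Subgroup (MulAut X), C.Normal ∧ Inn X ≤ C ∧
    (∀ β ∈ C, ∃ g : X, Z.map β.toMonoidHom = Z ^ᶜ g) ∧ ¬ Nat.card Z ∣ C.index * (NN Z).index

/-- `a` is the only involution in the centre of the Sylow 2-subgroup `U`. -/
structure A0 (a : X) (U : Subgroup X) : Prop where
  a2 : orderOf a = 2
  syl : Syl U ⊤
  mem : a ∈ U
  cen : U ≤ C1 a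
  uni : ∀ v ∈ U, v ∈ CC U → v * v = 1 → v = 1 ∨ v = a
  lt : ∀ D : Subgroup (MulAut X), IsPGroup 2 D → (∀ β ∈ D, ∀ u ∈ U, β u = u) →
    Nat.card D < Nat.card U

/-- An involution of type A. -/
structure ATy (p : ℕ) (a : X) : Prop where
  ex : ∃ U, A0 a U
  inn : ∀ β : MulAut X, β * β = 1 → β ≠ 1 → Yp p β = Yp p (MulAut.conj a) → β = MulAut.conj a

/-- An involution of type S or A. -/
def Good (p : ℕ) (y : X) : Prop := (∃ Z, STy p y Z) ∨ ATy p y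

variable (X) in
/-- The facts needed for every member of the list. -/
structure KF (p : ℕ) : Prop where
  sf : Squarefree p
  gp : ∀ r : ℕ, r.Prime → r ∣ p → Gp X r
  oo : OO X
  ss : ∀ (y y' : X) (Z : Subgroup X), STy p y Z → orderOf y' = 2 →
    Nat.card (Yp p (MulAut.conj y')) = Nat.card (Yp p (MulAut.conj y)) → Good p y'

variable (X) in
/-- The involutions that are not good. -/
def BB (p : ℕ) (P : MulAut X → Prop) : Prop :=
  ∀ (b : X) (β : MulAut X), orderOf b = 2 → β * β = 1 → β ≠ 1 → P β →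
    ∀ θ : Yp p (MulAut.conj b) ≃* Yp p β, Good p b ∨ (∃ b', β = MulAut.conj b' ∧ Good p b') ∨
      ∃ v : Yp p (MulAut.conj b),
        (Mv (MulAut.conj b) v ∧ Good p (θ v : X)) ∨ (Mv β (θ v) ∧ Good p (v : X))

variable (X) in
/-- The facts used about `Sp₄(q)`. -/
structure CT (p : ℕ) : Prop where
  ix : IX X
  k1 : K1 X
  cyc : IsCyclic (Out X)
  c1 : ∀ y : X, orderOf y = 2 → Good p y ∨ Syl (C1 y) ⊤
  c2 : ∀ U : Subgroup X, Syl U ⊤ → ∀ c ∈ U ⊓ CC U, orderOf c = 2 → ¬ Good p c → ∀ u ∈ U,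
    orderOf u = 2 → ¬ Good p u → u ∉ CC U → ∃ h ∈ U ⊔ C1 u, Good p (h * c * h⁻¹ * c⁻¹)
  c3 : ∀ U : Subgroup X, Syl U ⊤ → ∀ u ∈ U, u * u ≠ 1 → ∃ v ∈ ⁅zpowers u, U⁆, Good p v
  c4 : ∀ U : Subgroup X, Syl U ⊤ → ⁅U, U⁆ = U ⊓ CC U ∧ ∀ u ∈ U, u * u ∈ CC U
  c6 : ∀ U : Subgroup X, Syl U ⊤ → ∀ u ∈ U, (C1 u).relIndex U ≤ 2 → u ∈ CC U
  c7 : ∀ U : Subgroup X, Syl U ⊤ → ∀ β : MulAut X, Two β → (∀ u ∈ U, β u ∈ U) →
    (∀ v ∈ U ⊓ CC U, β v = v) → β ∈ Inn X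
  c8 : ∀ U : Subgroup X, Syl U ⊤ → ∃ Ω : Set X, Odd Ω.ncard ∧ 1 < Ω.ncard ∧
    (∀ v ∈ Ω, v ∈ U ⊓ CC U) ∧ (∀ v ∈ U ⊓ CC U, v ≠ 1 → Good p v ∨ v ∈ Ω) ∧
    ∀ a ∈ Ω, ∀ b ∈ Ω, ∃ h ∈ NN U, h * a * h⁻¹ = b

end Abs

/-! ### Subgroups of a group -/

variable {G : Type*} [Group G]

/-- Two distinct conjugates of the standard subgroup. -/
structure Pr (A B : Subgroup G) : Prop where
  sd : ∃ T z, St T A z
  cj : ∃ g, B = A ^ᶜ g
  ne : B ≠ A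

/-- The frame given by S1910. -/
structure Fr (A B R R' : Subgroup G) : Prop extends Pr A B where
  sR : Syl R (CC A)
  sR' : Syl R' (CC B ⊓ NN A)
  nb : R' ≠ ⊥
  nR : R' ≤ NN R
  cen : R ⊓ NN R' ≤ CC R'
  iso : Nonempty (↥(R ⊓ CC R') ≃* R')

/-- An involution `r` of `C(B)` acts on `A` as the involution `y` of `A`. -/
structure Ip (A B : Subgroup G) (y r : G) : Prop extends Pr A B where
  yA : y ∈ A
  y2 : orderOf y = 2
  r2 : r * r = 1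
  rB : r ∈ CC B
  ry : r * y⁻¹ ∈ CC A

/-- `Yp` in terms of the ambient group. -/
def YG (p : ℕ) (A : Subgroup G) (x : G) : Subgroup G :=
  closure {l | l ∈ A ∧ Commute l x ∧ l ^ p = 1}

/-- The subgroup generated by the elements of `A ⊓ B` of order dividing `p`. -/
def YY (p : ℕ) (A B : Subgroup G) : Subgroup G := closure {l | l ∈ A ∧ l ∈ B ∧ l ^ p = 1}

/-- Trivial centre and a good prime. -/
structure FG (p : ℕ) (A : Subgroup G) : Prop where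
  zen : A ⊓ CC A = ⊥
  gd : ∀ t ∈ CC A, orderOf t = 2 → ∀ x : G, Commute x t → x ^ p = 1 → x ∈ A

/-- `STy` in terms of the ambient group. -/
structure SG (p : ℕ) (A : Subgroup G) (y : G) (Z : Subgroup G) : Prop where
  sq : ∀ v ∈ Z, v * v = 1
  le : Z ≤ YG p A y
  cz : Z ≤ CC (YG p A y)
  cen : ∀ x ∈ NN A, Two x → x ∈ CC (YG p A y) → ∃ v ∈ Z, x * v⁻¹ ∈ CC A
  tr : ∀ a ∈ Z, ∀ b ∈ Z, a ≠ 1 → b ≠ 1 → ∃ g ∈ A, g ∈ NN Z ∧ g * a * g⁻¹ = b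
  four : 2 < Nat.card Z
  idx : ¬ Nat.card Z ∣ (NN Z).relIndex (NN A)

/-- `A0` in terms of the ambient group. -/
structure A0G (A : Subgroup G) (a : G) (U : Subgroup G) : Prop where
  a2 : orderOf a = 2
  syl : Syl U A
  mem : a ∈ U
  cen : U ≤ C1 a
  uni : ∀ v ∈ U, v ∈ CC U → v * v = 1 → v = 1 ∨ v = a
  lt : ∀ D ≤ NN A ⊓ CC U, IsPGroup 2 D → D ⊓ CC A = ⊥ → Nat.card D < Nat.card U

/-- `ATy` in terms of the ambient group. -/
structure AG (p : ℕ) (A : Subgroup G) (a : G) : Prop where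
  ex : ∃ U, A0G A a U
  inn : ∀ x ∈ NN A, x * x = 1 → x ∉ CC A → YG p A x = YG p A a → x * a⁻¹ ∈ CC A

/-- `Good` in terms of the ambient group. -/
structure GoodG (p : ℕ) (A : Subgroup G) (y : G) : Prop where
  yA : y ∈ A
  y2 : orderOf y = 2
  ty : (∃ Z, SG p A y Z ∧ ∀ g : G, ∀ y' ∈ A ^ᶜ g, orderOf y' = 2 →
      Nat.card (YG p (A ^ᶜ g) y') = Nat.card (YG p A y) →
        (∃ Z', SG p (A ^ᶜ g) y' Z') ∨ AG p (A ^ᶜ g) y') ∨ AG p A y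

/-- The outer automorphisms induced on `A` have at most one involution. -/
def O1 (A : Subgroup G) : Prop := ∀ x ∈ NN A, ∀ y ∈ NN A, In A (x * x) → In A (y * y) →
  In A x ∨ In A y ∨ In A (x * y)

/-- `CT` in terms of the ambient group. -/
structure CG (p : ℕ) (A : Subgroup G) : Prop where
  ix : ∀ U, Syl U A → ∀ x ∈ NN A, x ∈ NN U → x * x = 1 → (C1 x).relIndex U ≤ 2 → In A x
  k1 : ∀ U, Syl U A → ∀ x ∈ NN A, ∀ z ∈ U ⊓ CC U, x * x * z⁻¹ ∈ CC A →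
    (∀ u ∈ U, x * u * x⁻¹ * u⁻¹ ∈ U ⊓ CC U) → ∃ u ∈ U, x * u⁻¹ ∈ CC A
  outc : ∀ x ∈ NN A, ∀ y ∈ NN A, In A ⁅x, y⁆
  o1 : O1 A
  c1 : ∀ y ∈ A, orderOf y = 2 → GoodG p A y ∨ Syl (A ⊓ C1 y) A
  c2 : ∀ U, Syl U A → ∀ c ∈ U ⊓ CC U, orderOf c = 2 → ¬ GoodG p A c → ∀ u ∈ U,
    orderOf u = 2 → ¬ GoodG p A u → u ∉ CC U →
      ∃ h ∈ U ⊔ (A ⊓ C1 u), GoodG p A (h * c * h⁻¹ * c⁻¹)
  c3 : ∀ U, Syl U A → ∀ u ∈ U, u * u ≠ 1 → ∃ v ∈ ⁅zpowers u, U⁆, GoodG p A v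
  c4 : ∀ U, Syl U A → ⁅U, U⁆ = U ⊓ CC U ∧ ∀ u ∈ U, u * u ∈ CC U
  c6 : ∀ U, Syl U A → ∀ u ∈ U, (C1 u).relIndex U ≤ 2 → u ∈ CC U
  c7 : ∀ U, Syl U A → ∀ x ∈ NN A, x ∈ NN U → Two x → x ∈ CC (U ⊓ CC U) → In A x
  c8 : ∀ U, Syl U A → ∃ Ω : Set G, Odd Ω.ncard ∧ 1 < Ω.ncard ∧
    (∀ v ∈ Ω, v ∈ U ⊓ CC U) ∧ (∀ v ∈ U ⊓ CC U, v ≠ 1 → GoodG p A v ∨ v ∈ Ω) ∧
    ∀ a ∈ Ω, ∀ b ∈ Ω, ∃ h ∈ A ⊓ NN U, h * a * h⁻¹ = b

/-! ### Transport along an isomorphism `A ≃* X` -/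

section Em

variable {X : Type*} [Group X] {A : Subgroup G}

/-- The embedding `X → G` with image `A`. -/
def io (e : A ≃* X) : X →* G := A.subtype.comp e.symm.toMonoidHom

/-- The action of `N(A)` on `X`. -/
def ac (e : A ≃* X) : NN A →* MulAut X := (MulAut.congr e).toMonoidHom.comp A.normalizerMonoidHom

theorem io_inj (e : A ≃* X) : Function.Injective (io e) :=
  A.subtype_injective.comp e.symm.injective

theorem io_mem (e : A ≃* X) (x : X) : io e x ∈ A := (e.symm x).2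

theorem io_apply (e : A ≃* X) (a : A) : io e (e a) = a := by simp [io]

theorem exists_io (e : A ≃* X) {a : G} (ha : a ∈ A) : ∃ x, io e x = a := ⟨e ⟨a, ha⟩, io_apply e _⟩

theorem io_range (e : A ≃* X) : (io e).range = A :=
  le_antisymm (by rintro _ ⟨x, rfl⟩; exact io_mem e x) fun _ ha => exists_io e ha

theorem io_ac (e : A ≃* X) (n : NN A) (x : X) : io e (ac e n x) = n * io e x * (n : G)⁻¹ := by
  simp [io, ac, MulAut.congr]

theorem ac_fix (e : A ≃* X) {n : NN A} {x : X} : ac e n x = x ↔ Commute (io e x) n := by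
  rw [← (io_inj e).eq_iff, io_ac, mul_inv_eq_iff_eq_mul, eq_comm]
  rfl

theorem ac_eq_conj (e : A ≃* X) {n : NN A} {v : X} :
    ac e n = MulAut.conj v ↔ (n : G) * (io e v)⁻¹ ∈ CC A := by
  constructor
  · intro h a ha
    obtain ⟨x, rfl⟩ := exists_io e ha
    have h1 := io_ac e n ((MulAut.conj v)⁻¹ x)
    rw [h, MulAut.apply_inv_self, MulAut.conj_inv_apply, map_mul, map_mul, map_inv] at h1
    conv_lhs => rw [h1]
    group
  · intro h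
    ext x
    apply io_inj e
    rw [io_ac, MulAut.conj_apply, map_mul, map_mul, map_inv]
    exact In.conj_eq h (io_mem e v) (io_mem e x)

theorem ac_eq_one (e : A ≃* X) {n : NN A} : ac e n = 1 ↔ (n : G) ∈ CC A := by
  simpa using ac_eq_conj e (n := n) (v := 1)

theorem ac_of_mem (e : A ≃* X) (v : X) : ac e ⟨io e v, le_normalizer (io_mem e v)⟩ = MulAut.conj v :=
  (ac_eq_conj e).2 (by simp)

theorem ac_inn (e : A ≃* X) {n : NN A} : ac e n ∈ Inn X ↔ In A n := by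
  constructor
  · rintro ⟨v, hv⟩
    exact ⟨io e v, io_mem e v, (ac_eq_conj e).1 hv.symm⟩
  · rintro ⟨a, ha, h⟩
    obtain ⟨v, rfl⟩ := exists_io e ha
    exact ⟨v, ((ac_eq_conj e).2 h).symm⟩

theorem map_Yp (e : A ≃* X) (p : ℕ) (n : NN A) : (Yp p (ac e n)).map (io e) = YG p A n := by
  rw [Yp, MonoidHom.map_closure, YG]
  congr 1
  ext l
  constructor
  · rintro ⟨x, ⟨h1, h2⟩, rfl⟩
    exact ⟨io_mem e x, (ac_fix e).1 h1, by rw [← map_pow, h2, map_one]⟩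
  · rintro ⟨h1, h2, h3⟩
    obtain ⟨x, rfl⟩ := exists_io e h1
    exact ⟨x, ⟨(ac_fix e).2 h2, io_inj e (by rw [map_pow, h3, map_one])⟩, rfl⟩

/-- The isomorphism for a conjugate. -/
noncomputable def cjE (e : A ≃* X) (g : G) : ↥(A ^ᶜ g) ≃* X :=
  (A.equivMapOfInjective _ (MulAut.conj g).injective).symm.trans e

end Em

end Cfsg.Agent.QS
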