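import Mathlib
import Cfsg.Agent.QS.KD
import Cfsg.Agent.QF.Act
import Cfsg.Agent.Cl.Transport

/-!
# S1817: covers of `M₂₂`, definitions (plan in `stubs/Cfsg/Agent/QS/CPLAN.md`)
-/

set_option autoImplicit false
set_option linter.unusedSectionVars false

namespace Cfsg.Agent.QS

open Cfsg Subgroup Cfsg.Agent.GT Cfsg.Agent.Inv Cfsg.Agent.Cmp Cfsg.Agent.QE Cfsg.Agent.QF
open scoped commutatorElement

universe u

/-- The facts used about `M₂₂`. -/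
structure CM (X : Type*) [Group X] : Prop where
  out : Nat.card (Out X) ∣ 2
  rk : PRankAtLeast 3 2 X
  one : ∀ a b : X, orderOf a = 2 → orderOf b = 2 → IsConj a b
  e8 : PRankAtLeast 2 3 X
  aty : ∀ a : X, orderOf a = 2 → ATy 3 a
  k4 : ∀ a : X, orderOf a = 2 → ∀ β : MulAut X, β ^ 4 = 1 →
    (∀ x ∈ Yp 3 (MulAut.conj a), β x = x) → β * β = 1
  sq : ∀ a : X, orderOf a = 2 → ∃ x ∈ Yp 3 (MulAut.conj a), x * x = a
  oc : ∀ β : MulAut X, β * β = 1 → β ∉ Inn X → ∃ y : Fin 4 → X, Function.Injective y ∧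
    (∀ i, Mv β (y i)) ∧ (∀ i j, Commute (y i) (y j)) ∧ y 0 * y 1 * y 2 * y 3 = 1

variable {G : Type*} [Group G]

/-- `CM` for the central quotient, in terms of the ambient group. -/
structure CMG (A : Subgroup G) : Prop where
  cyc : IsCyclic ↥(A ⊓ CC A)
  card : Nat.card ↥(A ⊓ CC A) = 2 ∨ Nat.card ↥(A ⊓ CC A) = 4
  gd : ∀ t ∈ CC A, orderOf t = 2 → ∀ x : G, Commute x t → x ^ 3 = 1 → x ∈ A
  o2 : ∀ x ∈ NN A, ∀ y ∈ NN A, In A x ∨ In A y ∨ In A (x * y)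
  lift : ∀ x ∈ A, x * x ∈ CC A → ∃ c ∈ A ⊓ CC A, x * x = c * c
  ia : ∀ a ∈ A, a ∉ CC A → a * a ∈ CC A →
    (∃ U, Syl U A ∧ a ∈ U ∧ (∀ u ∈ U, ⁅u, a⁆ ∈ CC A) ∧
      ∀ v ∈ U, (∀ u ∈ U, ⁅u, v⁆ ∈ CC A) → v * v ∈ CC A → v ∈ CC A ∨ v * a⁻¹ ∈ CC A) ∧
    (∀ x ∈ NN A, x * x = 1 → x ∉ CC A → YG 3 A x = YG 3 A a → x * a⁻¹ ∈ CC A) ∧
    (∀ x ∈ NN A, x ^ 4 = 1 → x ∈ CC (YG 3 A a) → x * x ∈ CC A) ∧
    ∃ x ∈ YG 3 A a, x * x * a⁻¹ ∈ CC A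
  oc : ∀ x ∈ NN A, x * x = 1 → ¬ In A x → ∃ g : Fin 4 → G, (∀ i, g i ∈ A) ∧
    (∀ i, ⁅g i, x⁆ ∉ CC A ∧ ⁅g i, x⁆ * ⁅g i, x⁆ ∈ CC A) ∧
    (∀ i j, i ≠ j → ⁅g i, x⁆ * (⁅g j, x⁆)⁻¹ ∉ CC A) ∧ (∀ i j, ⁅⁅g i, x⁆, ⁅g j, x⁆⁆ ∈ CC A) ∧
    ⁅g 0, x⁆ * ⁅g 1, x⁆ * ⁅g 2, x⁆ * ⁅g 3, x⁆ ∈ CC A

section Em

variable {X : Type*} [Group X] {A : Subgroup G} [Finite G]

/-- The projection `A → X`. -/
def pq (e : A ⧸ center A ≃* X) : A →* X := e.toMonoidHom.comp (QuotientGroup.mk' (center A))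

/-- The action of `N(A)` on `X`. -/
def aq (e : A ⧸ center A ≃* X) : NN A →* MulAut X := (MulAut.congr e).toMonoidHom.comp (act A)

theorem pq_surj (e : A ⧸ center A ≃* X) : Function.Surjective (pq e) :=
  e.surjective.comp (QuotientGroup.mk'_surjective _)

theorem pq_eq_one (e : A ⧸ center A ≃* X) {a : A} : pq e a = 1 ↔ (a : G) ∈ CC A :=
  (map_eq_one_iff e e.injective).trans QF.mk_eq_one

theorem pq_eq (e : A ⧸ center A ≃* X) {a b : A} : pq e a = pq e b ↔ (a : G) * (b : G)⁻¹ ∈ CC A := by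
  rw [← mul_inv_eq_one, ← map_inv, ← map_mul, pq_eq_one]
  rfl

theorem aq_pq (e : A ⧸ center A ≃* X) (n : NN A) (a : A) :
    aq e n (pq e a) = pq e (A.normalizerMonoidHom n a) := by
  simp [aq, pq, MulAut.congr, act_mk]

theorem aq_of_mem (e : A ⧸ center A ≃* X) (a : A) :
    aq e ⟨a, le_normalizer a.2⟩ = MulAut.conj (pq e a) := by
  ext x
  obtain ⟨b, rfl⟩ := pq_surj e x
  rw [aq_pq, MulAut.conj_apply, ← map_inv, ← map_mul, ← map_mul]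
  rfl

theorem aq_eq_one (hA : ⁅A, A⁆ = A) (e : A ⧸ center A ≃* X) {n : NN A} :
    aq e n = 1 ↔ (n : G) ∈ CC A :=
  (map_eq_one_iff (MulAut.congr e) (MulAut.congr e).injective).trans (act_eq_one hA)

theorem aq_eq_conj (hA : ⁅A, A⁆ = A) (e : A ⧸ center A ≃* X) {n : NN A} {a : A} :
    aq e n = MulAut.conj (pq e a) ↔ (n : G) * (a : G)⁻¹ ∈ CC A := by
  rw [← aq_of_mem, ← mul_inv_eq_one, ← map_inv, ← map_mul, aq_eq_one hA]
  rfl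

theorem aq_inn (hA : ⁅A, A⁆ = A) (e : A ⧸ center A ≃* X) {n : NN A} : aq e n ∈ Inn X ↔ In A n := by
  constructor
  · rintro ⟨v, hv⟩
    obtain ⟨a, rfl⟩ := pq_surj e v
    exact ⟨a, a.2, (aq_eq_conj hA e).1 hv.symm⟩
  · rintro ⟨a, ha, h⟩
    exact ⟨pq e ⟨a, ha⟩, ((aq_eq_conj hA e).2 h).symm⟩

theorem map_YG (h2 : IsPGroup 2 (center A)) (e : A ⧸ center A ≃* X) {p : ℕ} (hp : Odd p)
    (n : NN A) : ((YG p A n).subgroupOf A).map (pq e) = Yp p (aq e n) := by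
  have h1 : (YG p A n).subgroupOf A = closure {l : A | Commute (l : G) n ∧ l ^ p = 1} := by
    apply map_injective A.subtype_injective
    have h0 : YG p A n ≤ A := (closure_le _).2 fun _ h => h.1
    rw [subgroupOf_map_subtype, inf_eq_left.2 h0, MonoidHom.map_closure, YG]
    congr 1
    ext l
    exact ⟨fun h => ⟨⟨l, h.1⟩, ⟨h.2.1, Subtype.ext h.2.2⟩, rfl⟩, by
      rintro ⟨a, h, rfl⟩
      exact ⟨a.2, h.1, congrArg Subtype.val h.2⟩⟩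
  rw [h1, MonoidHom.map_closure, Yp]
  congr 1
  ext x
  constructor
  · rintro ⟨a, h, rfl⟩
    refine ⟨?_, by rw [← map_pow, h.2, map_one]⟩
    rw [aq_pq]
    exact congrArg _ (Subtype.ext (by rw [Act_coe, ← h.1.eq, mul_inv_cancel_right]))
  · rintro ⟨k1, k2⟩
    obtain ⟨j, hj, hj'⟩ := lift_odd h2 hp (x := e.symm x) (by rw [← map_pow, k2, map_one])
    have hx : pq e j = x := by
      change e (QuotientGroup.mk j) = x
      rw [hj, e.apply_symm_apply]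
    refine ⟨j, ⟨(comm_of_odd h2 (Odd.of_dvd_nat hp (orderOf_dvd_of_pow_eq_one hj')) ?_).symm, hj'⟩, hx⟩
    apply e.injective
    rw [← hx, aq_pq] at k1
    exact k1

/-- The isomorphism for a conjugate. -/
noncomputable def cjQ (e : A ⧸ center A ≃* X) (g : G) : ↥(A ^ᶜ g) ⧸ center ↥(A ^ᶜ g) ≃* X :=
  (Cl.centerQuotCongr (A.equivMapOfInjective _ (MulAut.conj g).injective).symm).trans e

end Em

end Cfsg.Agent.QS
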