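import Mathlib
import Cfsg.Agent.QS.KD
import Cfsg.Agent.QF.K0

/-!
# S1817: a short list of facts that gives `KF` and `BB` (plan in `stubs/Cfsg/Agent/QS/HPLAN.md`)
-/

set_option autoImplicit false
set_option linter.unusedSectionVars false

namespace Cfsg.Agent.QS

open Cfsg Subgroup Cfsg.Agent.GT Cfsg.Agent.Inv Cfsg.Agent.Cmp Cfsg.Agent.QE Cfsg.Agent.QF
open scoped commutatorElement

variable {X : Type*} [Group X]

/-- A 2-central involution. -/
def Cen (c : X) : Prop := orderOf c = 2 ∧ ¬ 2 ∣ (C1 c).index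

/-- An involution that is a square. -/
def Jq {H : Type*} [Group H] (v : H) : Prop := orderOf v = 2 ∧ ∃ w, w * w = v

/-- A member of a normal subgroup of order four with a fixed point free element. -/
def Jw {H : Type*} [Group H] (v : H) : Prop := v ≠ 1 ∧ ∃ W : Subgroup H, W.Normal ∧ Nat.card W = 4 ∧
  v ∈ W ∧ ∃ y, ∀ w ∈ W, y * w * y⁻¹ = w → w = 1

/-- One of the two properties. -/
def Jt (ε : Bool) {H : Type*} [Group H] (v : H) : Prop := cond ε (Jq v) (Jw v)

variable (X) in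
/-- The numerical facts. -/
structure HN (p : ℕ) : Prop where
  zen : center X = ⊥
  out : Nat.card (Out X) ∣ 2
  sf : Squarefree p
  rk : ∀ r : ℕ, r.Prime → r ∣ p → r ≠ 2 ∧ PRankAtLeast r 2 X

/-- The central class. -/
structure HA (p : ℕ) (a : X) (U : Subgroup X) : Prop where
  a2 : orderOf a = 2
  syl : Syl U ⊤
  cen : U ≤ C1 a
  uni : ∀ v ∈ CC U, v * v = 1 → v = 1 ∨ v = a
  nab : ¬ U ≤ CC U
  cy : ∀ v ∈ CC (Yp p (MulAut.conj a)), v * v = 1 → v = 1 ∨ v = a

/-- The central class, given by one 2-subgroup. -/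
structure HQ (p : ℕ) (a : X) (Q : Subgroup X) : Prop where
  cen : Cen a
  le : Q ≤ Yp p (MulAut.conj a)
  two : IsPGroup 2 Q
  uni : ∀ v ∈ CC Q, v * v = 1 → v = 1 ∨ v = a
  nab : ¬ Q ≤ CC Q

variable (X) in
/-- The outer involutions. -/
structure HO : Prop where
  ou : ∀ β : MulAut X, β * β = 1 → β ∉ Inn X → ∀ c, Cen c → β c = c → ¬ fixedSubgroup β ≤ C1 c
  oo : ∀ β : MulAut X, β * β = 1 → β ∉ Inn X →
    ∃ x y : X, β x = x ∧ β y = y ∧ (Mv β ⁅x, y⁆ ∨ Mv β (x * x))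

/-- The other class. -/
structure HB (p : ℕ) (b : X) (ε : Bool) : Prop where
  b2 : orderOf b = 2
  two : ∀ c : X, orderOf c = 2 → Cen c ∨ IsConj b c
  j1 : ∃ v : Yp p (MulAut.conj b), Jt ε v ∧ Mv (MulAut.conj b) v
  j2 : ∀ v : Yp p (MulAut.conj b), Jt ε v → Cen (v : X)
  j3 : ∀ β : MulAut X, β * β = 1 → β ∉ Inn X → Nonempty (Yp p (MulAut.conj b) ≃* Yp p β) →
    ∀ v : Yp p β, Jt ε v → Cen (v : X)

theorem mem_Yp {p : ℕ} {β : MulAut X} {x : X} (h1 : β x = x) (h2 : x ^ p = 1) : x ∈ Yp p β :=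
  subset_closure ⟨h1, h2⟩

theorem Yp_le_fix (p : ℕ) (β : MulAut X) : Yp p β ≤ fixedSubgroup β := (closure_le _).2 fun _ h => h.1

theorem conj_fix {a x : X} : MulAut.conj a x = x ↔ Commute x a := by
  rw [MulAut.conj_apply, mul_inv_eq_iff_eq_mul, eq_comm]
  rfl

theorem Yp_le_C1 (p : ℕ) (a : X) : Yp p (MulAut.conj a) ≤ C1 a := fun _ h =>
  mem_C1.2 (conj_fix.1 (Yp_le_fix p _ h))

theorem mem_Yp_conj {p : ℕ} {a x : X} (h1 : Commute x a) (h2 : x ^ p = 1) : x ∈ Yp p (MulAut.conj a) :=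
  mem_Yp (conj_fix.2 h1) h2

/-- `b` is conjugate to `v * b`. -/
theorem mv_conj {b v : X} (v2 : orderOf v = 2) (h : IsConj b (v * b)) : Mv (MulAut.conj b) v := by
  obtain ⟨g, hg⟩ := isConj_iff.1 h
  exact ⟨v2, g, by rw [MulAut.conj_apply, eq_mul_inv_of_mul_eq hg.symm]; group⟩

theorem HO.of_out (h : ∀ β : MulAut X, β * β = 1 → β ∈ Inn X) : HO X :=
  ⟨fun β h2 h1 => (h1 (h β h2)).elim, fun β h2 h1 => (h1 (h β h2)).elim⟩

theorem Jt.map {ε : Bool} {H H' : Type*} [Group H] [Group H'] (e : H ≃* H') {v : H} (h : Jt ε v) :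
    Jt ε (e v) := by
  cases ε
  · obtain ⟨h1, W, hW, c, hv, y, hy⟩ := h
    refine ⟨fun k => h1 (e.injective (k.trans (map_one e).symm)), W.map e.toMonoidHom,
      hW.map _ e.surjective, (card_map_of_injective e.injective).trans c, ⟨v, hv, rfl⟩, e y, ?_⟩
    rintro _ ⟨w, hw, rfl⟩ k
    rw [hy w hw (e.injective (by simpa using k)), map_one]
  · obtain ⟨h1, w, rfl⟩ := h
    exact ⟨by rwa [e.orderOf_eq], e w, (map_mul e w w).symm⟩

section Tr

variable {Y : Type*} [Group Y] [Finite Y] (e : X ≃* Y)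
include e

theorem map_C1 (c : X) : (C1 c).map e.toMonoidHom = C1 (e c) := by
  ext y
  obtain ⟨x, rfl⟩ := e.surjective y
  rw [show e x = e.toMonoidHom x from rfl, mem_map_iff_mem e.injective, mem_C1, mem_C1]
  exact ⟨fun k => k.map e, fun k => k.of_map e.injective⟩

theorem cen_iff {c : X} : Cen (e c) ↔ Cen c := by
  rw [Cen, Cen, e.orderOf_eq, ← map_C1, index_map_of_bijective (f := e.toMonoidHom) e.bijective]

theorem map_Yp_equiv (p : ℕ) (β : MulAut X) :
    (Yp p β).map e.toMonoidHom = Yp p (MulAut.congr e β) := by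
  rw [Yp, MonoidHom.map_closure, Yp]
  congr 1
  ext y
  obtain ⟨x, rfl⟩ := e.surjective y
  constructor
  · rintro ⟨x', ⟨h1, h2⟩, k⟩
    obtain rfl : x' = x := e.injective k
    exact ⟨by rw [k0_app, h1], by rw [← map_pow, h2, map_one]⟩
  · rintro ⟨h1, h2⟩
    exact ⟨x, ⟨e.injective (by rwa [k0_app] at h1), e.injective (by rw [map_pow, h2, map_one])⟩, rfl⟩

/-- The isomorphism between the subgroups `Yp`. -/
noncomputable def ypE (p : ℕ) (β : MulAut X) {γ : MulAut Y} (h : γ = MulAut.congr e β) :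
    Yp p β ≃* Yp p γ :=
  ((Yp p β).equivMapOfInjective e.toMonoidHom e.injective).trans
    (MulEquiv.subgroupCongr ((map_Yp_equiv e p β).trans (h ▸ rfl)))

theorem ypE_coe (p : ℕ) (β : MulAut X) {γ : MulAut Y} (h : γ = MulAut.congr e β) (v : Yp p β) :
    (ypE e p β h v : Y) = e v := rfl

theorem Mv.map {β : MulAut X} {v : X} (h : Mv β v) : Mv (MulAut.congr e β) (e v) := by
  obtain ⟨h1, g, hg⟩ := h
  exact ⟨by rwa [e.orderOf_eq], e g, by rw [k0_app, hg, map_mul, map_inv]⟩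

theorem HN.map {p : ℕ} (h : HN X p) : HN Y p := by
  refine ⟨eq_bot_iff.2 fun z hz => ?_, Nat.card_congr (QT.outCongr e).toEquiv ▸ h.out, h.sf,
    fun r h1 h2 => ⟨(h.rk r h1 h2).1, (h.rk r h1 h2).2.of_mulEquiv e⟩⟩
  obtain ⟨z, rfl⟩ := e.surjective z
  have : z ∈ center X := mem_center_iff.2 fun g => e.injective (by
    rw [map_mul, map_mul, mem_center_iff.1 hz])
  rw [h.zen, mem_bot] at this
  rw [this, map_one]
  exact one_mem _

theorem cc_of_map {Q : Subgroup X} {a : X} (h : ∀ v ∈ CC Q, v * v = 1 → v = 1 ∨ v = a) :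
    ∀ v ∈ CC (Q.map e.toMonoidHom), v * v = 1 → v = 1 ∨ v = e a := fun v hv v2 => by
  obtain ⟨v, rfl⟩ := e.surjective v
  exact (h v (fun q hq => e.injective (by rw [map_mul, map_mul]; exact hv _ ⟨q, hq, rfl⟩))
    (e.injective (by rw [map_mul, v2, map_one]))).imp (fun k => by rw [k, map_one]) fun k => by rw [k]

theorem HA.map {p : ℕ} {a : X} {U : Subgroup X} (h : HA p a U) : HA p (e a) (U.map e.toMonoidHom) := by
  refine ⟨by rw [e.orderOf_eq, h.a2], ⟨le_top, h.syl.two.map _, ?_⟩, map_C1 e a ▸ map_mono h.cen,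
    cc_of_map e h.uni, fun k => h.nab fun q hq r hr => e.injective (by
      rw [map_mul, map_mul]; exact k ⟨q, hq, rfl⟩ _ ⟨r, hr, rfl⟩), ?_⟩
  · rw [relIndex_top_right, index_map_of_bijective (f := e.toMonoidHom) e.bijective, ← relIndex_top_right]
    exact h.syl.idx
  · rw [k0_conj, ← map_Yp_equiv]
    exact cc_of_map e h.cy

theorem HO.map (h : HO X) : HO Y := by
  have key : ∀ β : MulAut Y, β * β = 1 → β ∉ Inn Y →
      ∃ α : MulAut X, α * α = 1 ∧ α ∉ Inn X ∧ β = MulAut.congr e α := fun β h2 h1 => by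
    obtain ⟨α, rfl⟩ := (MulAut.congr e).surjective β
    exact ⟨α, (MulAut.congr e).injective (by rw [map_mul, h2, map_one]), fun k => h1 ((TyG_inn e).2 k), rfl⟩
  refine ⟨fun β h2 h1 c hc k1 k2 => ?_, fun β h2 h1 => ?_⟩ <;> obtain ⟨α, a2, a1, rfl⟩ := key β h2 h1
  · obtain ⟨c, rfl⟩ := e.surjective c
    refine h.ou α a2 a1 c ((cen_iff e).1 hc) (e.injective (by rwa [k0_app] at k1)) ?_
    rwa [k0_fix, ← map_C1, map_le_map_iff_of_injective e.injective] at k2
  · obtain ⟨x, y, k1, k2, k3⟩ := h.oo α a2 a1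
    refine ⟨e x, e y, by rw [k0_app, k1], by rw [k0_app, k2], k3.imp (fun k => ?_) fun k => ?_⟩
    · simpa only [map_commutatorElement] using k.map e
    · simpa only [map_mul] using k.map e

theorem HB.map {p : ℕ} {b : X} {ε : Bool} (h : HB p b ε) : HB p (e b) ε := by
  have hb := k0_conj e b
  refine ⟨by rw [e.orderOf_eq, h.b2], fun c hc => ?_, ?_, fun v hv => ?_, fun β h2 h1 ⟨θ⟩ v hv => ?_⟩
  · obtain ⟨c, rfl⟩ := e.surjective c
    exact (h.two c (by rwa [e.orderOf_eq] at hc)).imp (cen_iff e).2 fun k => e.toMonoidHom.map_isConj k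
  · obtain ⟨v, h1, h2⟩ := h.j1
    exact ⟨ypE e p _ hb v, h1.map _, by rw [ypE_coe, hb]; exact h2.map e⟩
  · obtain ⟨v, rfl⟩ := (ypE e p _ hb).surjective v
    exact (cen_iff e).2 (h.j2 v (by simpa using hv.map (ypE e p _ hb).symm))
  · obtain ⟨α, rfl⟩ := (MulAut.congr e).surjective β
    obtain ⟨v, rfl⟩ := (ypE e p α rfl).surjective v
    exact (cen_iff e).2 (h.j3 α ((MulAut.congr e).injective (by rw [map_mul, h2, map_one]))
      (fun k => h1 ((TyG_inn e).2 k)) ⟨((ypE e p _ hb).trans θ).trans (ypE e p α rfl).symm⟩ v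
      (by simpa using hv.map (ypE e p α rfl).symm))

end Tr

theorem Cen.conj [Finite X] {c d : X} (h : Cen c) (k : IsConj c d) : Cen d := by
  obtain ⟨g, rfl⟩ := isConj_iff.1 k
  exact (cen_iff (MulAut.conj g)).2 h

theorem HQ.ha [Finite X] {p : ℕ} {a : X} {Q : Subgroup X} (h : HQ p a Q) : ∃ U, HA p a U := by
  obtain ⟨U, h1, h2⟩ := exists_syl_ge h.two (h.le.trans (Yp_le_C1 p a))
  refine ⟨U, h.cen.1, ⟨le_top, h2.two, fun k => ?_⟩, h2.le, fun v hv => h.uni v (centralizer_le h1 hv),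
    fun k => h.nab (h1.trans (k.trans (centralizer_le h1))), fun v hv => h.uni v (centralizer_le h.le hv)⟩
  rw [relIndex_top_right, ← relIndex_mul_index h2.le] at k
  exact (Nat.prime_two.dvd_mul.1 k).elim h2.idx h.cen.2

/-- An involution whose centralizer has order divisible by the 2-part of the order of the group. -/
theorem cen_of_dvd [Finite X] {c : X} {n m : ℕ} (c2 : orderOf c = 2) (hX : Nat.card X = 2 ^ n * m)
    (hm : ¬ 2 ∣ m) (h : 2 ^ n ∣ Nat.card (C1 c)) : Cen c := by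
  refine ⟨c2, fun k => hm ?_⟩
  obtain ⟨s, hs⟩ := h
  have e := (C1 c).card_mul_index
  rw [hX, hs, mul_assoc] at e
  exact Nat.eq_of_mul_eq_mul_left (by positivity) e ▸ k.mul_left s

theorem Cen.dvd [Finite X] {c : X} (h : Cen c) {n : ℕ} (hX : 2 ^ n ∣ Nat.card X) : 2 ^ n ∣ Nat.card (C1 c) := by
  rw [← (C1 c).card_mul_index] at hX
  exact (Nat.Coprime.pow_left n ((Nat.Prime.coprime_iff_not_dvd Nat.prime_two).2 h.2)).dvd_of_dvd_mul_right hX

end Cfsg.Agent.QS
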