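import Mathlib
import Cfsg.Agent.QS.HD

/-! # S1817: tools for the facts of `QS/HD` -/

set_option autoImplicit false
set_option linter.unusedSectionVars false

namespace Cfsg.Agent.QS

open Cfsg Subgroup Cfsg.Agent.GT Cfsg.Agent.Inv Cfsg.Agent.Cmp Cfsg.Agent.QE Cfsg.Agent.QF
open scoped commutatorElement

variable {X : Type*} [Group X] [Finite X]

/-- The clauses of `HO` for one automorphism. -/
def HO1 (β : MulAut X) : Prop := (∀ c, Cen c → β c = c → ¬ fixedSubgroup β ≤ C1 c) ∧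
  ∃ x y : X, β x = x ∧ β y = y ∧ (Mv β ⁅x, y⁆ ∨ Mv β (x * x))

theorem HO.of_one (h : ∀ β : MulAut X, β * β = 1 → β ∉ Inn X → HO1 β) : HO X :=
  ⟨fun β h2 h1 => (h β h2 h1).1, fun β h2 h1 => (h β h2 h1).2⟩

theorem HO1.map {Y : Type*} [Group Y] [Finite Y] (e : X ≃* Y) {β : MulAut X} (h : HO1 β) :
    HO1 (MulAut.congr e β) := by
  obtain ⟨h1, x, y, k1, k2, k3⟩ := h
  refine ⟨fun c hc k1 k2 => ?_, e x, e y, by rw [k0_app, k1], by rw [k0_app, k2],
    k3.imp (fun k => ?_) fun k => ?_⟩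
  · obtain ⟨c, rfl⟩ := e.surjective c
    refine h1 c ((cen_iff e).1 hc) (e.injective (by rwa [k0_app] at k1)) ?_
    rwa [k0_fix, ← map_C1, map_le_map_iff_of_injective e.injective] at k2
  · simpa only [map_commutatorElement] using k.map e
  · simpa only [map_mul] using k.map e

theorem HO1.conj {β γ : MulAut X} (h : HO1 β) (k : IsConj β γ) : HO1 γ := by
  obtain ⟨δ, rfl⟩ := isConj_iff.1 k
  exact h.map δ

theorem conj_inj (hZ : center X = ⊥) : Function.Injective (MulAut.conj : X →* MulAut X) :=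
  (injective_iff_map_eq_one _).2 fun x hx =>
    mem_bot.1 (hZ ▸ mem_center_iff.2 fun g => (mul_inv_eq_iff_eq_mul.1 (DFunLike.congr_fun hx g)).symm)

theorem aut_conj (β : MulAut X) (x : X) : β * MulAut.conj x * β⁻¹ = MulAut.conj (β x) :=
  MulEquiv.ext fun y => by simp

theorem mv_of_conj (hZ : center X = ⊥) {β : MulAut X} {g v : X} (v2 : orderOf v = 2)
    (h : MulAut.conj g * β * (MulAut.conj g)⁻¹ = MulAut.conj v * β) : Mv β v :=
  ⟨v2, g, conj_inj hZ (by rw [map_mul, map_inv, ← aut_conj, eq_mul_inv_of_mul_eq h.symm]; group)⟩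

theorem inn_or (out : Nat.card (Out X) ∣ 2) {β : MulAut X} (hβ : β ∉ Inn X) (δ : MulAut X) :
    δ ∈ Inn X ∨ δ * β⁻¹ ∈ Inn X := by
  have h2 : (Inn X).index = 2 := ((Nat.dvd_prime Nat.prime_two).1 out).resolve_left fun k =>
    hβ (index_eq_one.1 k ▸ mem_top β)
  rw [mul_mem_iff_of_index_two h2, inv_mem_iff]
  tauto

theorem mv_of_isConj (hZ : center X = ⊥) (out : Nat.card (Out X) ∣ 2) {β : MulAut X} (hβ : β ∉ Inn X) {v : X}
    (v2 : orderOf v = 2) (h : IsConj β (MulAut.conj v * β)) : Mv β v := by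
  obtain ⟨δ, hδ⟩ := isConj_iff.1 h
  rcases inn_or out hβ δ with ⟨g, rfl⟩ | ⟨g, hg⟩
  · exact mv_of_conj hZ v2 hδ
  · exact mv_of_conj hZ (g := g) v2 (by rw [← hδ, hg]; group)

/-- For a fixed involution `v`, `conj v * β` is again an outer involution. -/
theorem twist {β : MulAut X} (b2 : β * β = 1) (hβ : β ∉ Inn X) {v : X} (v2 : v * v = 1) (hv : β v = v) :
    MulAut.conj v * β * (MulAut.conj v * β) = 1 ∧ MulAut.conj v * β ∉ Inn X := by
  refine ⟨?_, fun k => hβ ((mul_mem_cancel_left (show MulAut.conj v ∈ Inn X from ⟨v, rfl⟩)).1 k)⟩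
  have := aut_conj β v
  rw [hv, mul_inv_eq_iff_eq_mul] at this
  rw [mul_assoc, ← mul_assoc β, this, mul_assoc, b2, mul_one, ← map_mul, v2, map_one]

theorem ou_of_prime {β : MulAut X} {s : ℕ} {x : X} (hx : β x = x) (hs : orderOf x = s)
    (h : ∀ c : X, Cen c → ¬ s ∣ Nat.card (C1 c)) : ∀ c, Cen c → β c = c → ¬ fixedSubgroup β ≤ C1 c :=
  fun c hc _ k => h c hc (hs ▸ orderOf_dvd_natCard _ (k hx))

/-- On `n ≡ 4 mod 8` points the square of an element of order four of a group without a subgroup of index two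
has a fixed point. -/
theorem sq_fix {G α : Type*} [Group G] [MulAction G α] (hG : ∀ H : Subgroup G, H.index ≠ 2) {e : ℕ → α} {n : ℕ}
    (he : Set.InjOn e (Set.Iio n)) (hcl : ∀ g : G, ∀ i < n, ∃ j < n, g • e i = e j) (hn : n % 8 = 4) {w : G}
    (h4 : w * w * (w * w) = 1) : ∃ i < n, (w * w) • e i = e i := by
  classical
  by_contra! hf
  let S : SubMulAction G α := ⟨e '' Set.Iio n, by
    rintro g _ ⟨i, hi, rfl⟩
    obtain ⟨j, hj, k⟩ := hcl g i hi
    exact ⟨j, hj, k.symm⟩⟩
  have fS : Set.Finite (e '' Set.Iio n) := (Set.finite_Iio n).image e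
  have : Finite S := fS
  letI := Fintype.ofFinite S
  have cS : Fintype.card S = n := by
    rw [← Nat.card_eq_fintype_card]
    change Nat.card (e '' Set.Iio n) = n
    rw [Nat.card_coe_set_eq, he.ncard_image, Set.ncard_Iio_nat]
  let σ := MulAction.toPermHom G S w
  have s1 : Equiv.Perm.sign σ = 1 := by
    by_contra k
    refine hG (Equiv.Perm.sign.comp (MulAction.toPermHom G S)).ker ?_
    rw [index_ker]
    have : (Equiv.Perm.sign.comp (MulAction.toPermHom G S)).range = ⊤ := eq_top_iff.2 fun u _ => by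
      rcases Int.units_eq_one_or u with rfl | rfl
      · exact one_mem _
      · exact ⟨w, (Int.units_eq_one_or _).resolve_left k⟩
    rw [this, card_top]
    simp
  have f2 : ∀ x : S, (σ ^ 2) x ≠ x := by
    rintro ⟨_, i, hi, rfl⟩ k
    refine hf i hi ?_
    have := congrArg Subtype.val k
    simpa [σ, pow_two, mul_smul] using this
  have s4 : σ ^ 4 = 1 := by
    rw [← map_pow, show w ^ 4 = w * w * (w * w) by simp [pow_succ, mul_assoc], h4, map_one]
  have ct : ∀ m ∈ σ.cycleType, m = 4 := fun m hm => by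
    have h1 : m ∣ 4 := (Equiv.Perm.dvd_of_mem_cycleType hm).trans (orderOf_dvd_of_pow_eq_one s4)
    have h2 := Equiv.Perm.two_le_of_mem_cycleType hm
    have h3 : m ≤ 4 := Nat.le_of_dvd (by norm_num) h1
    by_contra h5
    obtain rfl : m = 2 := by interval_cases m <;> simp_all
    rw [Equiv.Perm.cycleType_def, Multiset.mem_map] at hm
    obtain ⟨c, hc, k⟩ := hm
    have hc' := Equiv.Perm.mem_cycleFactorsFinset_iff.1 hc
    obtain ⟨x, hx⟩ := hc'.1.nonempty_support
    have c2 : c ^ 2 = 1 := by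
      rw [← orderOf_dvd_iff_pow_eq_one, hc'.1.orderOf]
      exact dvd_of_eq k
    refine f2 x ?_
    rw [pow_two, Equiv.Perm.mul_apply, ← hc'.2 x hx, ← hc'.2 _ (Equiv.Perm.apply_mem_support.2 hx),
      ← Equiv.Perm.mul_apply, ← pow_two, c2, Equiv.Perm.one_apply]
  have su : σ.support = Finset.univ := Finset.eq_univ_iff_forall.2 fun x =>
    Equiv.Perm.mem_support.2 fun k => f2 x (by rw [pow_two, Equiv.Perm.mul_apply, k, k])
  have sm := σ.sum_cycleType
  rw [su, Finset.card_univ, cS, Multiset.eq_replicate_card.2 ct, Multiset.sum_replicate, smul_eq_mul] at sm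
  rw [Equiv.Perm.sign_of_cycleType, σ.sum_cycleType, su, Finset.card_univ, cS,
    Odd.neg_one_pow (Nat.odd_iff.2 (by omega))] at s1
  exact absurd s1 (by decide)

end Cfsg.Agent.QS
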