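import Mathlib
import Cfsg.Agent.QS.HG

/-! # S1817, piece QS-HK: from the short list to KF and BB (proof in stubs/Cfsg/Agent/QS/HPLAN.md) -/

set_option autoImplicit false
set_option linter.unusedVariables false
set_option linter.unusedSectionVars false

namespace Cfsg.Agent.QS

open Cfsg Subgroup Cfsg.Agent.GT Cfsg.Agent.Inv Cfsg.Agent.Cmp Cfsg.Agent.QE Cfsg.Agent.QF
open scoped commutatorElement

variable {X : Type*} [Group X] [Finite X] {F : Type} [Field F] [Fintype F]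

namespace HK

variable {p : ℕ} {a : X} {U : Subgroup X}

theorem sq_of {c : X} (h : orderOf c = 2) : c * c = 1 := by rw [← pow_two, ← h, pow_orderOf_eq_one]

theorem ne_of {c : X} (h : orderOf c = 2) : c ≠ 1 := fun k => by rw [k, orderOf_one] at h; omega

theorem mem_U (h : Syl U ⊤) {x : X} (h2 : Two x) (hx : x ∈ CC U) : x ∈ U := by
  have h1 : IsPGroup 2 ↥(U ⊔ zpowers x) := by
    rw [sup_comm]
    exact h2.isPGroup.to_sup_of_normal_right' h.two (zpowers_le.2 (CC_le_NN U hx))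
  have h3 : U = U ⊔ zpowers x := eq_of_le_of_card_ge le_sup_left (h.card_le h1 le_top)
  exact h3.ge (mem_sup_right (mem_zpowers x))

theorem cen (h : HA p a U) : Cen a := ⟨h.a2, fun k => h.syl.idx (by
  rw [relIndex_top_right]
  exact k.trans (index_dvd_of_le h.cen))⟩

theorem conj_of_cen (h : HA p a U) {c : X} (hc : Cen c) : IsConj a c := by
  obtain ⟨V, hV⟩ := exists_syl (C1 c)
  have hV' : Syl V ⊤ := ⟨le_top, hV.two, fun k => by
    rw [relIndex_top_right, ← relIndex_mul_index hV.le] at k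
    exact (Nat.prime_two.dvd_mul.1 k).elim hV.idx hc.2⟩
  obtain ⟨g, -, hg⟩ := hV'.exists_conj h.syl.two le_top
  have h1 : g⁻¹ * c * g ∈ CC U := fun u hu => by
    have := (mem_C1.1 (hV.le (hg u hu))).eq
    calc u * (g⁻¹ * c * g) = g⁻¹ * (g * u * g⁻¹ * c) * g := by group
      _ = g⁻¹ * c * g * u := by rw [this]; group
  rcases h.uni _ h1 (by rw [show g⁻¹ * c * g * (g⁻¹ * c * g) = g⁻¹ * (c * c) * g by group, sq_of hc.1]; group)
    with k | k
  · exact (ne_of hc.1 (by rw [show c = g * (g⁻¹ * c * g) * g⁻¹ by group, k]; group)).elim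
  · exact isConj_iff.2 ⟨g, by rw [← k]; group⟩

theorem ha_of_cen (h : HA p a U) {c : X} (hc : Cen c) : ∃ V, HA p c V := by
  obtain ⟨g, rfl⟩ := isConj_iff.1 (conj_of_cen h hc)
  exact ⟨_, h.map (MulAut.conj g)⟩

theorem lt (hN : HN X p) (h : HA p a U) (D : Subgroup (MulAut X)) (hD : IsPGroup 2 D)
    (hf : ∀ β ∈ D, ∀ u ∈ U, β u = u) : Nat.card D < Nat.card U := by
  have h1 : (Inn X).relIndex D ≤ 2 :=
    Nat.le_of_dvd two_pos ((relIndex_dvd_index_of_normal _ _).trans hN.out)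
  have h2 : Inn X ⊓ D ≤ (U ⊓ CC U).map MulAut.conj := by
    rintro _ ⟨⟨x, rfl⟩, hx⟩
    have hc : x ∈ CC U := fun u hu => (conj_fix.1 (hf _ hx u hu)).eq
    obtain ⟨k, hk⟩ := hD ⟨_, hx⟩
    exact ⟨x, ⟨mem_U h.syl ⟨k, conj_inj hN.zen (by
      rw [map_pow, map_one]; exact congrArg Subtype.val hk)⟩ hc, hc⟩, rfl⟩
  have h3 := card_le_of_le h2
  rw [card_map_of_injective (conj_inj hN.zen)] at h3
  have h4 : Nat.card (Inn X ⊓ D : Subgroup _) * (Inn X).relIndex D = Nat.card D := by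
    rw [← inf_relIndex_right, ← Nat.card_congr (subgroupOfEquivOfLe inf_le_right).toEquiv]
    exact card_mul_index _
  have h5 : Nat.card (U ⊓ CC U : Subgroup X) * (U ⊓ CC U).relIndex U = Nat.card U := by
    rw [← Nat.card_congr (subgroupOfEquivOfLe inf_le_left).toEquiv]
    exact card_mul_index _
  have h6 : 2 < (U ⊓ CC U).relIndex U := by
    by_contra! k
    have h0 : (U ⊓ CC U).relIndex U ≠ 0 := index_ne_zero_of_finite
    refine h.nab fun x hx => ?_
    by_contra hx'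
    have h7 : (U ⊓ CC U).relIndex U = 2 := by
      have : (U ⊓ CC U).relIndex U ≠ 1 := fun e => hx' (relIndex_eq_one.1 e hx).2
      omega
    refine hx' fun y hy => ?_
    by_cases hy' : y ∈ CC U
    · exact (hy' x hx).symm
    have h8 : (⟨x, hx⟩ : U) * ⟨y, hy⟩ ∈ (U ⊓ CC U).subgroupOf U :=
      (mul_mem_iff_of_index_two h7).2 (iff_of_false (fun k => hx' k.2) fun k => hy' k.2)
    have h9 : x * (x * y) = x * y * x := h8.2 x hx
    exact (mul_left_cancel (h9.trans (mul_assoc _ _ _))).symm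
  have h0 : 0 < Nat.card (U ⊓ CC U : Subgroup X) := Nat.card_pos
  nlinarith

theorem a_cc (h : HA p a U) : a ∈ CC (Yp p (MulAut.conj a)) := fun y hy => (mem_C1.1 (Yp_le_C1 p a hy)).eq

theorem aty (hN : HN X p) (hO : HO X) (h : HA p a U) : ATy p a := by
  refine ⟨⟨U, h.a2, h.syl, mem_U h.syl (Two.of_two h.a2) fun u hu => (mem_C1.1 (h.cen hu)).eq, h.cen,
    fun v _ => h.uni v, lt hN h⟩, fun β b2 b1 e => ?_⟩
  have key : ∀ δ : MulAut X, (∀ y ∈ Yp p β, δ.symm y ∈ Yp p β) → δ a = a := fun δ hδ => by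
    refine (h.cy (δ a) (fun y hy => δ.symm.injective ?_) (by rw [← map_mul, sq_of h.a2, map_one])).resolve_left
      fun k => ne_of h.a2 (δ.injective (k.trans (map_one δ).symm))
    rw [map_mul, map_mul, δ.symm_apply_apply]
    exact a_cc h _ (e ▸ hδ y (e ▸ hy))
  by_cases hβ : β ∈ Inn X
  · obtain ⟨b, rfl⟩ := hβ
    rcases h.cy b (fun y hy => (mem_C1.1 (Yp_le_C1 p b (e ▸ hy))).eq)
      (conj_inj hN.zen (by rw [map_mul, b2, map_one])) with k | k
    · exact (b1 (by rw [k, map_one])).elim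
    · rw [k]
  · refine (hO.ou β b2 hβ a (cen h) (key β fun y hy => ?_) fun f hf => ?_).elim
    · rwa [show β.symm y = y from β.injective (by rw [β.apply_symm_apply]; exact (Yp_le_fix p β hy).symm)]
    · refine mem_C1.2 (conj_fix.1 ?_)
      have h1 := key (MulAut.conj f) fun y hy => by
        have h2 : MulAut.congr (MulAut.conj f).symm β = β := MulEquiv.ext fun x => by
          simp [MulAut.congr, show β f = f from hf, mul_assoc]
        rw [← h2, ← map_Yp_equiv]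
        exact ⟨y, hy, rfl⟩
      exact conj_fix.2 (conj_fix.1 h1).symm

theorem sty_conj {y : X} {Z : Subgroup X} (h : STy p y Z) (g : X) : STy p (g * y * g⁻¹) (Z ^ᶜ g) := by
  let e := MulAut.conj g
  have hY : Yp p (MulAut.conj (g * y * g⁻¹)) = (Yp p (MulAut.conj y)).map e.toMonoidHom := by
    rw [map_Yp_equiv, ← k0_conj]
    rfl
  have hn : NN (Z ^ᶜ g) = (NN Z).map e.toMonoidHom := (map_equiv_normalizer_eq Z e).symm
  obtain ⟨C, c1, c2, c3, c4⟩ := h.idx
  refine ⟨(e.orderOf_eq y).trans h.y2, ?_, hY ▸ map_mono h.le, ?_, fun β b2 hβ => ?_, ?_,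
    by rw [card_map_of_injective e.injective]; exact h.four, C, c1, c2, fun β hβ => ?_, ?_⟩
  · rintro _ ⟨v, hv, rfl⟩
    rw [← map_mul, h.sq v hv, map_one]
  · rw [hY]
    rintro _ ⟨v, hv, rfl⟩ _ ⟨x, hx, rfl⟩
    rw [← map_mul, ← map_mul, h.cz hv x hx]
  · obtain ⟨β, rfl⟩ := (MulAut.congr e).surjective β
    obtain ⟨v, hv, rfl⟩ := h.cen β (b2.imp fun k hk => (MulAut.congr e).injective (by rw [map_pow, hk, map_one]))
      fun x hx => e.injective (by rw [← k0_app]; exact hβ _ (hY ▸ ⟨x, hx, rfl⟩))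
    exact ⟨e v, ⟨v, hv, rfl⟩, (k0_conj e v).symm⟩
  · rintro _ ⟨u, hu, rfl⟩ _ ⟨v, hv, rfl⟩ u1 v1
    obtain ⟨n, h1, h2⟩ := h.tr u hu v hv (fun k => u1 (by rw [k, map_one])) fun k => v1 (by rw [k, map_one])
    exact ⟨e n, hn ▸ ⟨n, h1, rfl⟩, by rw [← h2]; simp [e, mul_assoc]⟩
  · obtain ⟨k, hk⟩ := c3 β hβ
    refine ⟨β g * k * g⁻¹, ?_⟩
    rw [map_map, map_map, show β.toMonoidHom.comp (MulAut.conj g).toMonoidHom =
      (MulAut.conj (β g)).toMonoidHom.comp β.toMonoidHom from MonoidHom.ext fun x => by simp, ← map_map, hk, map_map]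
    congr 1
    exact MonoidHom.ext fun x => by simp [mul_assoc]
  · rwa [card_map_of_injective e.injective, hn, index_map_of_bijective (f := e.toMonoidHom) e.bijective]

end HK

open HK in
theorem kf_of {p : ℕ} (hN : HN X p) (hA : ∃ (a : X) (U : Subgroup X), HA p a U) (hO : HO X)
    (hB : (∀ c : X, orderOf c = 2 → Cen c) ∨ ∃ (b : X) (ε : Bool), HB p b ε) :
    KF X p ∧ BB X p fun _ => True := by
  obtain ⟨a, U, hA⟩ := hA
  have good : ∀ c : X, Cen c → Good p c := fun c hc =>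
    let ⟨V, hV⟩ := ha_of_cen hA hc
    .inr (aty hN hO hV)
  have o2 : ∀ q : Out X, q * q = 1 := fun q => by
    rw [← pow_two, ← orderOf_dvd_iff_pow_eq_one]
    exact (_root_.orderOf_dvd_natCard q).trans hN.out
  refine ⟨⟨hN.sf, fun r hr h1 => ⟨hr, (hN.rk r hr h1).1, (hN.rk r hr h1).2, fun φ h2 h3 => (h3 ?_).elim⟩,
    fun β b2 hβ f => ?_, fun y y' Z hy y2 _ => ?_⟩, fun b' β b2 β2 β1 _ θ => ?_⟩
  · rw [← QuotientGroup.eq_one_iff, ← orderOf_eq_one_iff]
    refine Nat.eq_one_of_dvd_coprimes ((Nat.coprime_primes hr Nat.prime_two).2 (hN.rk r hr h1).1)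
      (orderOf_dvd_of_pow_eq_one ?_) (orderOf_dvd_of_pow_eq_one ((pow_two _).trans (o2 _)))
    rw [← QuotientGroup.mk_pow, h2, QuotientGroup.mk_one]
  · obtain ⟨x, y, hx, hy, k | k⟩ := hO.oo β b2 hβ
    · refine ⟨⁅(⟨x, hx⟩ : fixedSubgroup β), (⟨y, hy⟩ : fixedSubgroup β)⁆, k, ?_⟩
      rw [map_commutatorElement, commutatorElement_def, inv_eq_of_mul_eq_one_right (o2 _),
        inv_eq_of_mul_eq_one_right (o2 _), mul_assoc (f _ * f _), o2]
    · exact ⟨⟨x, hx⟩ * ⟨x, hx⟩, k, by rw [map_mul, o2]⟩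
  · by_cases hc : Cen y'
    · exact good _ hc
    obtain ⟨b, ε, hb⟩ := hB.resolve_left fun k => hc (k _ y2)
    rcases hb.two y hy.y2 with k | k
    · obtain ⟨V, hV⟩ := ha_of_cen hA k
      have h1 : (Z : Set X) ⊆ {1, y} := fun v hv => hV.cy v (hy.cz hv) (hy.sq v hv)
      have h2 := (Set.ncard_le_ncard h1).trans (Set.ncard_insert_le _ _)
      have h3 := hy.four
      rw [Set.ncard_singleton, ← Nat.card_coe_set_eq] at h2
      exact absurd h2 (not_le.2 h3)
    · obtain ⟨g, rfl⟩ := isConj_iff.1 (k.symm.trans ((hb.two y' y2).resolve_left hc))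
      exact .inl ⟨_, sty_conj hy g⟩
  · by_cases hc : Cen b'
    · exact .inl (good _ hc)
    obtain ⟨b, ε, hb⟩ := hB.resolve_left fun k => hc (k _ b2)
    have tr : ∀ c : X, orderOf c = 2 → ¬ Cen c → HB p c ε := fun c c2 h => by
      obtain ⟨g, rfl⟩ := isConj_iff.1 ((hb.two c c2).resolve_left h)
      exact hb.map (MulAut.conj g)
    obtain ⟨v, v1, v2⟩ := (tr b' b2 hc).j1
    by_cases hβ : β ∈ Inn X
    · obtain ⟨c, rfl⟩ := hβ
      have c2 : orderOf c = 2 := orderOf_eq_prime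
        (conj_inj hN.zen (by rw [pow_two, map_mul, β2, map_one])) fun k => β1 (by rw [k, map_one])
      by_cases hc' : Cen c
      · exact .inr (.inl ⟨c, rfl, good _ hc'⟩)
      · exact .inr (.inr ⟨v, .inl ⟨v2, good _ ((tr c c2 hc').j2 _ (v1.map θ))⟩⟩)
    · exact .inr (.inr ⟨v, .inl ⟨v2, good _ ((tr b' b2 hc).j3 β β2 hβ ⟨θ⟩ _ (v1.map θ))⟩⟩)

end Cfsg.Agent.QS
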