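import Mathlib
import Cfsg.Agent.QS.HG
import Cfsg.Agent.QF.Tits
import Cfsg.Agent.GW.Defs
import Cfsg.Agent.Inv.Classes

/-! # S1817, piece QS-HTib: the Tits group, Borel and Tits (proof in stubs/Cfsg/Agent/QS/HPLAN.md) -/

set_option autoImplicit false
set_option linter.unusedVariables false
set_option maxRecDepth 100000

namespace Cfsg.Agent.QS

open Cfsg Subgroup Cfsg.Agent.GT Cfsg.Agent.Inv Cfsg.Agent.Cmp Cfsg.Agent.QE Cfsg.Agent.QF
open scoped commutatorElement

variable {X : Type*} [Group X] [Finite X] {F : Type} [Field F] [Fintype F]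

section
open Cfsg.Agent.Spor Cfsg.Agent.Rec Cfsg.Agent.NG.TP Cfsg.Agent.Chev Cfsg.Agent.Chev.F4T

/-- `M` normalizes a small group of 2-central involutions. -/
def HTib_G {K : Type*} [Group K] (M : Subgroup K) : Prop :=
  ∃ Z : Subgroup K, Z ≠ ⊥ ∧ Nat.card Z ∣ 4 ∧ M ≤ NN Z ∧ ∀ v ∈ Z, v ≠ 1 → Cen v

theorem HTib_map (e : X ≃* X) {M : Subgroup X} (h : HTib_G (M.comap (e : X →* X))) : HTib_G M := by
  obtain ⟨Z, h1, h2, h3, h4⟩ := h
  refine ⟨Z.map e.toMonoidHom, by rwa [Ne, map_eq_bot_iff_of_injective _ e.injective],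
    by rwa [card_map_of_injective e.injective], fun y hy => ?_, ?_⟩
  · obtain ⟨y, rfl⟩ := e.surjective y
    rw [NN, ← map_equiv_normalizer_eq]
    exact ⟨y, h3 hy, rfl⟩
  · rintro _ ⟨v, hv, rfl⟩ h
    exact (cen_iff e).2 (h4 v hv (by rintro rfl; exact h (map_one _)))

theorem HTib_two {K : Type} [Group K] (A : ParSys 2 K) {i j : A.I} (hall : ∀ k, k = i ∨ k = j) (h0 : A.P ∅ ≤ A.U)
    {T : Set A.I} (hT : T ≠ Set.univ) {M N : Subgroup K} (h1 : (A.U : Subgroup K) ≤ M) (hne : ¬ M ≤ A.U)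
    (h2 : (A.U : Subgroup K) ≤ N) (h3 : ¬ N ≤ M) : A.P T ≤ M ∨ A.P T ≤ N := by
  have h4 := A.P_empty.ge.trans h0
  obtain ⟨S, rfl⟩ := A.exists_eq M (h4.trans h1)
  obtain ⟨S', rfl⟩ := A.exists_eq N (h4.trans h2)
  obtain ⟨s, hs⟩ := S.eq_empty_or_nonempty.resolve_left (by rintro rfl; exact hne h0)
  obtain ⟨s', hs', hn⟩ := Set.not_subset.1 (mt A.le_iff.2 h3)
  obtain ⟨t, ht⟩ := (Set.ne_univ_iff_exists_notMem T).1 hT
  rw [A.le_iff, A.le_iff]
  by_cases e : t = s
  · subst e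
    refine .inr fun k hk => ?_
    rcases hall k with rfl | rfl <;> rcases hall t with rfl | rfl <;> rcases hall s' with rfl | rfl <;>
      first | exact hs' | exact absurd hk ht | exact absurd hs hn
  · refine .inl fun k hk => ?_
    rcases hall k with rfl | rfl <;> rcases hall s with rfl | rfl <;> rcases hall t with rfl | rfl <;>
      first | exact hs | exact absurd hk ht | exact absurd rfl e

theorem HTib_abs {K : Type} [Group K] [Finite K] {z a g gi f fi x b m : K}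
    (hK : Nat.card K = 2 ^ 11 * 3 ^ 3 * 5 ^ 2 * 13) (hs : Sat relM [z, a, g, gi, f, fi, x, b, m])
    (hN : 10240 ≤ Nat.card (clos [z, a, g, gi, f, fi, x, b])) (hS : Nat.card (clos [g, f * b * fi]) = 2 ^ 11)
    (P : ParSys 2 K) {i j : P.I} (hall : ∀ k, k = i ∨ k = j) (h0 : P.P ∅ ≤ P.U) {T : Set P.I}
    (hT : T ≠ Set.univ) : HTib_G (P.P T) := by
  classical
  obtain ⟨h, rfl, rfl⟩ := Tits_facts ((sat_append.1 hs).1.take (m := 8) (by decide +kernel)) hN
  have hm := (sat_append.1 hs).2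
  simp only [exM, sat_cons, evalW_cons, evalW_nil, nth_succ, nth_zero, mul_one] at hm
  obtain ⟨m1, -, -, m4, -⟩ := hm
  have mi : m⁻¹ = m := inv_eq_of_mul_eq_one_right m1
  have zz := (sat_append.1 (sat_append.1 hs).1).1 [0, 0] (by simp [relN])
  have xx := (sat_append.1 (sat_append.1 hs).1).2 [6, 6] (by simp [exC])
  have gx := (sat_append.1 (sat_append.1 hs).1).2 [2, 6, 3, 6] (by simp [exC])
  have sx := (sat_append.1 (sat_append.1 hs).1).2 [7, 5, 6, 4, 7, 5, 6, 4, 0] (by simp [exC])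
  simp only [evalW_cons, evalW_nil, nth_succ, nth_zero, mul_one] at zz xx gx sx
  have xi : x⁻¹ = x := inv_eq_of_mul_eq_one_right xx
  have zi : z⁻¹ = z := inv_eq_of_mul_eq_one_right zz
  have bi : b⁻¹ = b := inv_eq_of_mul_eq_one_right h.bb
  have mz : m * z * m⁻¹ = x := by
    rw [mi, ← xi, eq_inv_iff_mul_eq_one, mul_assoc, mul_assoc, m4]
  have mx : m * x * m⁻¹ = z := by
    rw [← mz, mi, ← mul_assoc, ← mul_assoc, m1, one_mul, mul_assoc, m1, mul_one]
  have hK' : Nat.card K = 2 ^ 11 * 8775 := by rw [hK]; norm_num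
  have hc : Nat.card (clos [g, f * b * f⁻¹]) = 2 ^ (Nat.card K).factorization 2 := by
    rw [hS, hK', Nat.factorization_eq_of_coprime_left (by norm_num) (by simp), Nat.prime_two.factorization_pow]
    simp
  obtain ⟨S, eS⟩ : ∃ S : Sylow 2 K, (S : Subgroup K) = clos [g, f * b * f⁻¹] := ⟨Sylow.ofCard _ hc, rfl⟩
  have mg : g ∈ clos [g, f, b] := mem_clos (by simp)
  have mf : f ∈ clos [g, f, b] := mem_clos (by simp)
  have mb : b ∈ clos [g, f, b] := mem_clos (by simp)
  have ms := mul_mem (mul_mem mf mb) (inv_mem mf)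
  have hle : (S : Subgroup K) ≤ clos [g, f, b] := eS ▸ clos_le.2 (by
    simp only [List.forall_mem_cons, List.not_mem_nil, false_imp_iff, implies_true, and_true]
    exact ⟨mg, ms⟩)
  have hCz : clos [g, f, b] ≤ C1 z := fun u hu => mem_C1.2 (h.cz u hu)
  have z2 : orderOf z = 2 := orderOf_eq_prime (by rw [pow_two, zz]) h.z1
  have cz : Cen z := cen_of_dvd z2 hK' (by norm_num) (hS ▸ eS ▸ card_dvd_of_le (hle.trans hCz))
  have cx : Cen x := cz.conj (isConj_iff.2 ⟨m, mz⟩)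
  have zx : z ≠ x := fun e => h.xf (by rw [← e, h.cz f mf])
  have xz : x * z = z * x := h.cz x (by
    rw [h.xw]
    repeat first | exact mf | exact mb | apply mul_mem | apply inv_mem)
  have pr : GW.Pair z x := ⟨z2, cx.1, zx, xz.symm⟩
  have sx' : f * b * f⁻¹ * x * (f * b * f⁻¹)⁻¹ = z * x := by
    have e : f * b * f⁻¹ * x * (f * b⁻¹ * f⁻¹) * x * (f * z * f⁻¹) = 1 := by
      rw [bi]
      calc _ = f * (b * (f⁻¹ * (x * (f * (b * (f⁻¹ * (x * (f * z)))))))) * f⁻¹ := by group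
        _ = 1 := by rw [sx]; group
    rw [h.cz f mf, mul_inv_cancel_right, mul_assoc, mul_eq_one_iff_eq_inv, mul_inv_rev, xi, zi] at e
    rw [← e]; group
  have nrm : ∀ u, u * z * u⁻¹ ∈ GW.four z x → u * x * u⁻¹ ∈ GW.four z x → u ∈ NN (GW.four z x) := fun u h1 h2 =>
    mem_normalizer_fintype fun v hv => (closure_le ((GW.four z x).comap (MulAut.conj u).toMonoidHom)).2 (by
      rintro _ (rfl | rfl); exacts [h1, h2]) hv
  have f1 : z ∈ GW.four z x := subset_closure (by simp)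
  have f2 : x ∈ GW.four z x := subset_closure (by simp)
  obtain ⟨k, hk⟩ := P.exists_comap_U S
  refine HTib_map (MulAut.conj k) ?_
  rcases HTib_two (P.comap (MulAut.conj k)) hall (fun y hy => h0 hy) hT (M := C1 z) (N := NN (GW.four z x))
    (hk ▸ hle.trans hCz) (fun e => by
      have k := card_le_of_le (hCz.trans e)
      rw [hk, eS, hS, h.card] at k
      omega) (hk ▸ eS ▸ clos_le.2 (by
      simp only [List.forall_mem_cons, List.not_mem_nil, false_imp_iff, implies_true, and_true]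
      refine ⟨nrm _ ?_ ?_, nrm _ ?_ (sx' ▸ mul_mem f1 f2)⟩
      · rwa [h.cz g mg, mul_inv_cancel_right]
      · rwa [show g * x * g⁻¹ = x by rw [← xi, eq_inv_iff_mul_eq_one, xi, ← gx]; group]
      · rwa [h.cz _ ms, mul_inv_cancel_right])) (fun e => zx (by
      rw [← mz, (mem_C1.1 (e (nrm m (mz.symm ▸ f2) (mx.symm ▸ f1)))).eq, mul_inv_cancel_right])) with e | e
  · refine ⟨zpowers z, by simpa using h.z1, by rw [Nat.card_zpowers, z2]; norm_num, e.trans fun u hu =>
      centralizer_le_normalizer _ (by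
        rintro _ ⟨n, rfl⟩
        exact ((mem_C1.1 hu).symm.zpow_left n).eq), fun v hv v1 => ?_⟩
    have := mem_zpowers_iff_mem_range_orderOf.1 hv
    simp only [z2, Finset.mem_image, Finset.mem_range] at this
    obtain ⟨n, hn, rfl⟩ := this
    interval_cases n
    · exact absurd (pow_zero z) v1
    · rwa [pow_one]
  · refine ⟨GW.four z x, fun e => h.z1 (mem_bot.1 (e ▸ f1)),
      (card_closure_pair_of_commute z2 cx.1 zx xz.symm).dvd, e, fun v hv v1 => ?_⟩
    rcases pr.mem_four.1 hv with rfl | rfl | rfl | rfl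
    exacts [absurd rfl v1, cz, cx, cx.conj (isConj_iff.2 ⟨_, sx'⟩)]

theorem HTib_T2 (b : commutator T2.Fix) (b2 : orderOf b = 2) : HTib_G (C1 b) := by
  have h := T2.idxTwo (by decide)
  let ι := T2.Fix.subtype.comp (commutator T2.Fix).subtype
  have hι : Function.Injective ι := (subtype_injective _).comp (subtype_injective _)
  obtain ⟨g, hg, S, hS, -, hP⟩ := T2.bt ((zpowers b).map ι)
    ((IsPGroup.of_card (n := 1) (by rw [Nat.card_zpowers, b2]; rfl)).map ι)
    (by rintro _ ⟨y, -, rfl⟩; exact y.1.2) (by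
      rw [Ne, map_eq_bot_iff_of_injective _ hι, zpowers_eq_bot]
      rintro rfl
      simp at b2)
  let φ := (MulAut.conjNormal (⟨g, hg⟩⁻¹ : T2.Fix) : MulAut (commutator T2.Fix)).trans
    ((commutator T2.Fix).equivMapOfInjective _ (subtype_injective _))
  obtain ⟨Z, h1, h2, h3, h4⟩ := HTib_abs card_T2 (Tits_sat (Tits_map ▸ (sat_append.1 sat_eT).1)) (by
    rw [Tits_card, ← card_C]
    refine card_le_of_le (genLt_le fun i hi => mem_clos ?_)
    interval_cases i <;> simp [Tits_E]) (by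
    rw [Tits_card, ← card_sylT, sylT]
    refine congrArg (fun H : Subgroup T2.Fix => Nat.card H) (congrArg Subgroup.closure (Set.ext fun y => ?_))
    simp [Tits_E, evalW_cons, mul_assoc]) (h.parSys.comap φ) h.all
    (fun y hy => (h.parSys.P_empty.trans h.normalizer_subgroupOf).le hy) hS
  refine ⟨Z, h1, h2, fun y hy => h3 ?_, h4⟩
  have := hP (ι y) y.1.2 (centralizer_le_normalizer _ (by
    rintro _ ⟨_, ⟨n, rfl⟩, rfl⟩
    exact (((mem_C1.1 hy).symm.zpow_left n).map ι).eq))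
  exact this

theorem HTib_main : ∀ b : Lie.TitsGroup, orderOf b = 2 → HTib_G (C1 b) := by
  change ∀ b : commutator (Lie.twistedF4 (ZMod 2) 1), orderOf b = 2 → HTib_G (C1 b)
  rw [twistedF4_two]
  exact HTib_T2

end

theorem bt_tits (b : Lie.TitsGroup) (b2 : orderOf b = 2) : ∃ Z : Subgroup Lie.TitsGroup, Z ≠ ⊥ ∧
    Nat.card Z ∣ 4 ∧ C1 b ≤ NN Z ∧ ∀ v ∈ Z, v ≠ 1 → Cen v := HTib_main b b2

end Cfsg.Agent.QS
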