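import Mathlib
import Cfsg.Agent.QS.KD

/-!
# S1817: the facts used for the groups of Lie type (plan in `stubs/Cfsg/Agent/QS/KPLAN.md`)
-/

set_option autoImplicit false

namespace Cfsg.Agent.QS.K

open Cfsg Subgroup Cfsg.Agent.GT Cfsg.Agent.Inv Cfsg.Agent.Cmp Cfsg.Agent.QE Cfsg.Agent.QF
open scoped commutatorElement

section Abs

variable {X : Type*} [Group X]

/-- The subgroup generated by the elements of order dividing `p` in the kernel of `f`. -/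
def Yk (p : ℕ) {y : X} (f : C1 y →* Out X) : Subgroup X :=
  closure {x | ∃ h : x ∈ C1 y, x ^ p = 1 ∧ f ⟨x, h⟩ = 1}

/-- An involution of central type. -/
def CTy (p : ℕ) (y : X) : Prop :=
  orderOf y = 2 ∧ ∀ f : C1 y →* Out X, ∃ U, Syl U ⊤ ∧ U ≤ Yk p f

variable (X) in
/-- The facts needed for every family. -/
structure LB (p : ℕ) : Prop where
  sf : Squarefree p
  rk : ∀ r : ℕ, r.Prime → r ∣ p → r ≠ 2 ∧ PRankAtLeast r 2 X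
  oo : OO X
  k1 : K1 X

variable (X) in
/-- The normalizer of a Sylow 2-subgroup fixes no element of its centre. -/
def HZ : Prop := ∀ U : Subgroup X, Syl U ⊤ → ∀ v ∈ U ⊓ CC U, NN U ≤ C1 v → v = 1

variable (X) in
/-- The centre of a Sylow 2-subgroup has order at most two. -/
def H2 : Prop := ∀ U : Subgroup X, Syl U ⊤ → ∀ v ∈ U ⊓ CC U, ∀ w ∈ U ⊓ CC U, v ≠ 1 → w ≠ 1 → v = w

variable (X) in
/-- The involutions that are not of central type. -/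
structure LE (p e : ℕ) : Prop where
  pw : ∀ w : X, orderOf (w ^ 2 ^ e) = 2 → CTy p (w ^ 2 ^ e)
  ety : ∀ y : X, orderOf y = 2 → CTy p y ∨
    ∀ f : C1 y →* Out X, ∃ w : C1 y, f w = 1 ∧ Mv (MulAut.conj y) ((w : X) ^ 2 ^ e)

variable (X) in
/-- The facts used about the large Ree groups. -/
structure LW (p : ℕ) : Prop where
  inn : ∀ β : MulAut X, β * β = 1 → β ∈ Inn X
  cz : ∀ U : Subgroup X, Syl U ⊤ → ∃ a ∈ U ⊓ CC U, ∃ b ∈ U ⊓ CC U, CTy p a ∧ CTy p b ∧ CTy p (a * b)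
  ety : ∀ y : X, orderOf y = 2 → CTy p y ∨ ∀ f : C1 y →* Out X, ∃ W, Syl W (C1 y) ∧ W ≤ Yk p f ∧
    ∀ a ∈ W ⊓ CC W, ∀ b ∈ W ⊓ CC W, orderOf a = 2 → orderOf b = 2 → orderOf (a * b) = 2 →
      Mv (MulAut.conj y) a ∨ Mv (MulAut.conj y) b ∨ Mv (MulAut.conj y) (a * b)

variable (X) in
/-- The facts used about `Sp₄(q)`. -/
structure CT (p : ℕ) : Prop where
  cyc : IsCyclic (Out X)
  c1 : ∀ y : X, orderOf y = 2 → CTy p y ∨ Syl (C1 y) ⊤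
  c2 : ∀ U : Subgroup X, Syl U ⊤ → ∀ c ∈ U ⊓ CC U, orderOf c = 2 → ¬ CTy p c → ∀ u ∈ U,
    orderOf u = 2 → ¬ CTy p u → u ∉ CC U → ∃ h ∈ U ⊔ C1 u, CTy p (h * c * h⁻¹ * c⁻¹)
  c3 : ∀ U : Subgroup X, Syl U ⊤ → ∀ u ∈ U, u * u ≠ 1 → ∃ v ∈ ⁅zpowers u, U⁆, CTy p v
  c4 : ∀ U : Subgroup X, Syl U ⊤ → ⁅U, U⁆ = U ⊓ CC U ∧ ∀ u ∈ U, u * u ∈ CC U
  c6 : ∀ U : Subgroup X, Syl U ⊤ → ∀ u ∈ U, (C1 u).relIndex U ≤ 2 → u ∈ CC U
  c7 : ∀ U : Subgroup X, Syl U ⊤ → ∀ β : MulAut X, Two β → (∀ u ∈ U, β u ∈ U) →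
    (∀ v ∈ U ⊓ CC U, β v = v) → β ∈ Inn X
  c8 : ∀ U : Subgroup X, Syl U ⊤ → ∃ Ω : Set X, Odd Ω.ncard ∧ 1 < Ω.ncard ∧
    (∀ v ∈ Ω, v ∈ U ⊓ CC U) ∧ (∀ v ∈ U ⊓ CC U, v ≠ 1 → CTy p v ∨ v ∈ Ω) ∧
    ∀ a ∈ Ω, ∀ b ∈ Ω, ∃ h ∈ NN U, h * a * h⁻¹ = b

theorem mem_Yk {p : ℕ} {y : X} {f : C1 y →* Out X} {x : X} (h : x ∈ C1 y) (h1 : x ^ p = 1)
    (h2 : f ⟨x, h⟩ = 1) : x ∈ Yk p f := subset_closure ⟨h, h1, h2⟩

theorem Yk_le {p : ℕ} {y : X} (f : C1 y →* Out X) : Yk p f ≤ C1 y := (closure_le _).2 fun _ h => h.1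

/-- `Yk` is normal in the centralizer. -/
theorem conj_Yk {p : ℕ} {y : X} {f : C1 y →* Out X} {x c : X} (hc : c ∈ C1 y) (hx : x ∈ Yk p f) :
    c * x * c⁻¹ ∈ Yk p f := by
  induction hx using closure_induction with
  | mem x h =>
    obtain ⟨h, h1, h2⟩ := h
    refine mem_Yk (mul_mem (mul_mem hc h) (inv_mem hc)) (by rw [conj_pow, h1, mul_one, mul_inv_cancel]) ?_
    change f (⟨c, hc⟩ * ⟨x, h⟩ * ⟨c, hc⟩⁻¹) = 1
    rw [map_mul, map_mul, h2, mul_one, map_inv, mul_inv_cancel]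
  | one => simp
  | mul a b _ _ h1 h2 => rw [← conj_mul]; exact mul_mem h1 h2
  | inv a _ h => rw [← conj_inv]; exact inv_mem h

theorem comm_Yk {p : ℕ} {y : X} {f : C1 y →* Out X} {x c : X} (hx : x ∈ Yk p f) (hc : c ∈ C1 y) :
    x * c * x⁻¹ * c⁻¹ ∈ Yk p f := by
  rw [mul_assoc x, mul_assoc x]
  exact mul_mem hx (conj_Yk hc (inv_mem hx))

/-- Conjugation as a map between centralizers. -/
def cjC (g y : X) : C1 y →* C1 (g * y * g⁻¹) :=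
  ((MulAut.conj g).toMonoidHom.comp (C1 y).subtype).codRestrict _ fun x =>
    mem_C1.2 ((mem_C1.1 x.2).map (MulAut.conj g))

theorem CTy.conj [Finite X] {p : ℕ} {y : X} (h : CTy p y) (g : X) : CTy p (g * y * g⁻¹) := by
  refine ⟨(orderOf_injective (MulAut.conj g).toMonoidHom (MulAut.conj g).injective y).trans h.1, fun f => ?_⟩
  obtain ⟨U, h1, h2⟩ := h.2 (f.comp (cjC g y))
  refine ⟨U ^ᶜ g, ?_, (map_mono h2).trans ?_⟩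
  · simpa only [map_conj_eq_self_iff.2 (show g ∈ NN (⊤ : Subgroup X) from le_normalizer (mem_top g))] using h1.conj g
  · rw [Yk, MonoidHom.map_closure]
    refine closure_mono ?_
    rintro _ ⟨x, ⟨k, k1, k2⟩, rfl⟩
    exact ⟨(cjC g y ⟨x, k⟩).2, by rw [← map_pow, k1, map_one], k2⟩

/-- The data of `LE.ety` can be conjugated. -/
theorem ety_conj {e : ℕ} {y : X}
    (h : ∀ f : C1 y →* Out X, ∃ w : C1 y, f w = 1 ∧ Mv (MulAut.conj y) ((w : X) ^ 2 ^ e)) (g : X)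
    (f : C1 (g * y * g⁻¹) →* Out X) :
    ∃ w : C1 (g * y * g⁻¹), f w = 1 ∧ Mv (MulAut.conj (g * y * g⁻¹)) ((w : X) ^ 2 ^ e) := by
  obtain ⟨w, h1, h2, k, h3⟩ := h (f.comp (cjC g y))
  have e1 : ((cjC g y w : C1 (g * y * g⁻¹)) : X) ^ 2 ^ e = g * (w : X) ^ 2 ^ e * g⁻¹ := conj_pow
  refine ⟨cjC g y w, h1, ?_, g * k * g⁻¹, ?_⟩
  · rw [e1]
    exact (orderOf_injective (MulAut.conj g).toMonoidHom (MulAut.conj g).injective _).trans h2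
  · rw [e1, h3]
    simp only [MulAut.conj_apply]
    group

/-- One Sylow subgroup suffices. -/
theorem syl_all [Finite X] {P : Subgroup X → Prop} {U : Subgroup X} (hU : Syl U ⊤) (h : ∀ g, P (U ^ᶜ g)) :
    ∀ W, Syl W ⊤ → P W := fun W hW => by
  obtain ⟨g, -, hg⟩ := hW.exists_conj hU.two le_top
  replace hg := map_conj_le_iff_forall.2 hg
  have := (hU.conj g)
  rw [map_conj_eq_self_iff.2 (show g ∈ NN (⊤ : Subgroup X) from le_normalizer (mem_top g))] at this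
  exact le_antisymm hg (this.le_of_le hW.two hg le_top) ▸ h g

end Abs

variable {G : Type*} [Group G]

/-- Trivial centre. -/
structure FG (p : ℕ) (A : Subgroup G) : Prop where
  zen : A ⊓ CC A = ⊥

/-- An involution of `A` that is induced by no other conjugate of `C(A)`. -/
structure GoodG (p : ℕ) (A : Subgroup G) (y : G) : Prop where
  yA : y ∈ A
  y2 : orderOf y = 2
  no : ∀ B r, ¬ Ip A B y r

theorem ss_false {p : ℕ} {A B : Subgroup G} {y r : G} (h : Ip A B y r) (_ : FG p A) (hy : GoodG p A y) :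
    False := hy.no B r h

theorem FG.conj {p : ℕ} {A : Subgroup G} (f : FG p A) (g : G) : FG p (A ^ᶜ g) :=
  ⟨by rw [CC, centralizer_map_conj, ← Tr.map_conj_inf, f.zen, Subgroup.map_bot]⟩

theorem FG.of_pr {p : ℕ} {A B : Subgroup G} (f : FG p A) (h : Pr A B) : FG p B := by
  obtain ⟨g, rfl⟩ := h.cj
  exact f.conj g

/-- `CT` in terms of the ambient group. -/
structure CG (p : ℕ) (A : Subgroup G) : Prop where
  ix : ∀ U, Syl U A → ∀ x ∈ NN A, x ∈ NN U → x * x = 1 → (C1 x).relIndex U ≤ 2 → In A x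
  k1 : ∀ U, Syl U A → ∀ x ∈ NN A, ∀ z ∈ U ⊓ CC U, x * x * z⁻¹ ∈ CC A →
    (∀ u ∈ U, x * u * x⁻¹ * u⁻¹ ∈ U ⊓ CC U) → ∃ u ∈ U, x * u⁻¹ ∈ CC A
  outc : ∀ x ∈ NN A, ∀ y ∈ NN A, In A ⁅x, y⁆
  o1 : O1 A
  c1 : ∀ y ∈ A, orderOf y = 2 → GoodG p A y ∨ Syl (A ⊓ C1 y) A
  c2 : ∀ U, Syl U A → ∀ c ∈ U ⊓ CC U, orderOf c = 2 → ¬ GoodG p A c → ∀ u ∈ U,
    orderOf u = 2 → ¬ GoodG p A u → u ∉ CC U →
      ∃ h ∈ U ⊔ (A ⊓ C1 u), GoodG p A (h * c * h⁻¹ * c⁻¹)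
  c3 : ∀ U, Syl U A → ∀ u ∈ U, u * u ≠ 1 → ∃ v ∈ ⁅zpowers u, U⁆, GoodG p A v
  c4 : ∀ U, Syl U A → ⁅U, U⁆ = U ⊓ CC U ∧ ∀ u ∈ U, u * u ∈ CC U
  c6 : ∀ U, Syl U A → ∀ u ∈ U, (C1 u).relIndex U ≤ 2 → u ∈ CC U
  c7 : ∀ U, Syl U A → ∀ x ∈ NN A, x ∈ NN U → Two x → x ∈ CC (U ⊓ CC U) → In A x
  c8 : ∀ U, Syl U A → ∃ Ω : Set G, Odd Ω.ncard ∧ 1 < Ω.ncard ∧
    (∀ v ∈ Ω, v ∈ U ⊓ CC U) ∧ (∀ v ∈ U ⊓ CC U, v ≠ 1 → GoodG p A v ∨ v ∈ Ω) ∧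
    ∀ a ∈ Ω, ∀ b ∈ Ω, ∃ h ∈ A ⊓ NN U, h * a * h⁻¹ = b

end Cfsg.Agent.QS.K
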