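import Mathlib
import Cfsg.Agent.QS.HK
import Cfsg.Agent.QS.HG
import Cfsg.Agent.QF.L3b
import Cfsg.Agent.Cl.PSL34

/-! # S1817, L3(q) with q ≥ 8 even: the inner involutions -/

set_option autoImplicit false
set_option linter.unusedVariables false

namespace Cfsg.Agent.QS

open Cfsg Subgroup Cfsg.Agent.GT Cfsg.Agent.Inv Cfsg.Agent.Cmp Cfsg.Agent.QE Cfsg.Agent.QF
open scoped commutatorElement

variable {F : Type} [Field F] [Fintype F]

namespace L3K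

open Cfsg.Agent.Cl Cfsg.Agent.Cl.Aut Cfsg.Agent.Inv.U3 Matrix

variable (F) in
/-- The group. -/
abbrev PS := ProjectiveSpecialLinearGroup (Fin 3) F

/-- The unitriangular elements. -/
def fq : U3.HQ F →* PS F := (QuotientGroup.mk' (center (SpecialLinearGroup (Fin 3) F))).comp U3.HQ.toSL

/-- The diagonal matrices. -/
def dg : Fˣ × Fˣ →* SpecialLinearGroup (Fin 3) F where
  toFun s := ⟨!![s.1, 0, 0; 0, s.2, 0; 0, 0, ((s.1 * s.2)⁻¹ : Fˣ)], by simp [Matrix.det_fin_three]; field_simp⟩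
  map_one' := by
    ext i j
    fin_cases i <;> fin_cases j <;> simp
  map_mul' x y := by
    refine Subtype.ext ?_
    change (!![((x * y).1 : F), 0, 0; 0, (x * y).2, 0; 0, 0, (((x * y).1 * (x * y).2)⁻¹ : Fˣ)] :
      Matrix (Fin 3) (Fin 3) F) = !![(x.1 : F), 0, 0; 0, x.2, 0; 0, 0, ((x.1 * x.2)⁻¹ : Fˣ)] *
        !![(y.1 : F), 0, 0; 0, y.2, 0; 0, 0, ((y.1 * y.2)⁻¹ : Fˣ)]
    ext i j
    fin_cases i <;> fin_cases j <;> simp [Matrix.mul_apply, Fin.sum_univ_three]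
    ring

/-- The diagonal elements. -/
def dq : Fˣ × Fˣ →* PS F := (QuotientGroup.mk' (center (SpecialLinearGroup (Fin 3) F))).comp dg

omit [Fintype F] in
theorem dg_coe (s t : Fˣ) : (dg (s, t) : Matrix (Fin 3) (Fin 3) F) =
    !![(s : F), 0, 0; 0, t, 0; 0, 0, ((s : F) * t)⁻¹] := by
  change !![(s : F), 0, 0; 0, t, 0; 0, 0, ((s * t)⁻¹ : Fˣ)] = _
  simp

omit [Fintype F] in
theorem dq_conj (s t : Fˣ) (x : U3.HQ F) :
    dq (s, t) * fq x * (dq (s, t))⁻¹ = fq ⟨s * (t : F)⁻¹ * x.a, t * (s * t) * x.b, s * (s * t) * x.c⟩ := by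
  rw [mul_inv_eq_iff_eq_mul]
  refine congrArg (QuotientGroup.mk' (center (SpecialLinearGroup (Fin 3) F))) (?_ : dg (s, t) * U3.HQ.toSL x =
    U3.HQ.toSL ⟨s * (t : F)⁻¹ * x.a, t * (s * t) * x.b, s * (s * t) * x.c⟩ * dg (s, t))
  refine Subtype.ext ?_
  change (dg (s, t) : Matrix (Fin 3) (Fin 3) F) * !![1, x.a, x.c; 0, 1, x.b; 0, 0, 1] =
    !![1, s * (t : F)⁻¹ * x.a, s * (s * t) * x.c; 0, 1, t * (s * t) * x.b; 0, 0, 1] *
      (dg (s, t) : Matrix (Fin 3) (Fin 3) F)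
  rw [dg_coe]
  ext i j
  fin_cases i <;> fin_cases j <;> simp [Matrix.mul_apply, Fin.sum_univ_three] <;> field_simp

omit [Fintype F] in
theorem dq_eq_one {s t : Fˣ} (h : dq (s, t) = 1) : s = t ∧ s ^ 3 = 1 := by
  obtain ⟨c, hc⟩ := sl_center_scalar (dg (s, t)) ((QuotientGroup.eq_one_iff _).1 h)
  have hc' : (dg (s, t) : Matrix (Fin 3) (Fin 3) F) = c • 1 := hc
  rw [dg_coe] at hc'
  have e1 : (s : F) = c := by simpa using congrFun (congrFun hc' 0) 0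
  have e2 : (t : F) = c := by simpa using congrFun (congrFun hc' 1) 1
  have e3 : ((s : F) * t)⁻¹ = c := by simpa using congrFun (congrFun hc' 2) 2
  refine ⟨Units.ext (e1.trans e2.symm), Units.ext ?_⟩
  have e4 := mul_inv_cancel₀ (mul_ne_zero s.ne_zero t.ne_zero)
  rw [e3, e2, ← e1] at e4
  rw [Units.val_pow_eq_pow_val, Units.val_one, ← e4]
  ring

variable [CharP F 2]

omit [Fintype F] [CharP F 2] in
theorem fq_inj : Function.Injective (fq (F := F)) := (injective_iff_map_eq_one _).2 fun x hx => by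
  obtain ⟨c, hc⟩ := sl_center_scalar (U3.HQ.toSL x) ((QuotientGroup.eq_one_iff _).1 hx)
  have hc' : !![1, x.a, x.c; 0, 1, x.b; 0, 0, 1] = c • (1 : Matrix (Fin 3) (Fin 3) F) := hc
  ext
  · simpa using congrFun (congrFun hc' 0) 1
  · simpa using congrFun (congrFun hc' 1) 2
  · simpa using congrFun (congrFun hc' 0) 2

theorem center_bot : center (PS F) = ⊥ :=
  haveI := psl_fin_isSimpleGroup (F := F) (n := 3) (by omega) (by omega)
  center_eq_bot_of_isSimpleGroup fun k => by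
    have := congrArg U3.HQ.c (fq_inj (F := F) ((map_mul _ _ _).trans ((k.1.1 (fq ⟨1, 0, 0⟩) (fq ⟨0, 1, 0⟩)).trans
      (map_mul _ _ _).symm)))
    simp at this

theorem syl : Syl (fq (F := F)).range ⊤ := by
  obtain ⟨k, hk⟩ := L3a.card_eq (F := F)
  have hP : IsPGroup 2 (U3.HQ F) := IsPGroup.of_card (n := k * 3) (by rw [U3.HQ.card, hk, pow_mul])
  have h2 := hP.of_surjective (fq (F := F)).rangeRestrict (fq (F := F)).rangeRestrict_surjective
  obtain ⟨U, hU⟩ := h2.exists_le_sylow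
  obtain ⟨e⟩ := U3.HQ.sylow_PSL hk U
  have hU' : (fq (F := F)).range = U := eq_of_le_of_card_ge hU
    ((Nat.card_congr e.toEquiv).trans (Nat.card_congr (MonoidHom.ofInjective fq_inj).toEquiv)).le
  exact ⟨le_top, h2, by rw [relIndex_top_right, hU']; exact U.not_dvd_index⟩

/-- The centre of the unitriangular group. -/
def zq : Multiplicative F →* U3.HQ F where
  toFun c := ⟨0, 0, c.toAdd⟩
  map_one' := rfl
  map_mul' x y := by ext <;> simp

variable (F) in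
/-- The root subgroup. -/
def ZZ : Subgroup (PS F) := (fq.comp zq).range

omit [Fintype F] [CharP F 2] in
theorem mem_ZZ {v : PS F} : v ∈ ZZ F ↔ ∃ c : F, fq ⟨0, 0, c⟩ = v := Iff.rfl

theorem card_ZZ : Nat.card (ZZ F) = Nat.card F := by
  have h : Function.Injective ((fq (F := F)).comp zq) := fun a b h => congrArg U3.HQ.c (fq_inj h)
  exact (Nat.card_congr (MonoidHom.ofInjective h).toEquiv).symm.trans (Nat.card_congr Multiplicative.toAdd)

omit [Fintype F] [CharP F 2] in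
theorem z_comm (c : F) (x : U3.HQ F) : Commute (fq x) (fq ⟨0, 0, c⟩) := by
  refine Commute.map ?_ fq
  ext <;> simp [add_comm]

omit [Fintype F] in
theorem z_sq (c : F) : fq (⟨0, 0, c⟩ : U3.HQ F) * fq ⟨0, 0, c⟩ = 1 := by
  rw [← map_mul, ← map_one fq]
  congr 1
  ext <;> simp [CharTwo.add_self_eq_zero]

theorem z_ord {c : F} (hc : c ≠ 0) : orderOf (fq (⟨0, 0, c⟩ : U3.HQ F)) = 2 :=
  orderOf_eq_prime ((pow_two _).trans (z_sq c)) fun h =>
    hc (congrArg U3.HQ.c (fq_inj (h.trans (map_one fq).symm)))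

theorem ZZ_eq : ZZ F = fq.range ⊓ CC fq.range := by
  refine le_antisymm ?_ ?_
  · rintro _ ⟨c, rfl⟩
    exact ⟨⟨_, rfl⟩, mem_CC.2 (by rintro _ ⟨x, rfl⟩; exact z_comm _ x)⟩
  · rintro _ ⟨⟨x, rfl⟩, h⟩
    have k : ∀ y, y * x = x * y := fun y => fq_inj (by
      rw [map_mul, map_mul]; exact comm_of_CC h ⟨y, rfl⟩)
    have e1 : x.b = 0 := by simpa [add_comm] using congrArg U3.HQ.c (k ⟨1, 0, 0⟩)
    have e2 : x.a = 0 := by simpa [add_comm] using congrArg U3.HQ.c (k ⟨0, 1, 0⟩)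
    exact mem_ZZ.2 ⟨x.c, congrArg fq (U3.HQ.ext e2.symm e1.symm rfl)⟩

theorem cz {y : PS F} (h : Commute y (fq ⟨0, 0, 1⟩)) (c : F) : Commute y (fq ⟨0, 0, c⟩) := by
  obtain ⟨s, rfl⟩ := QuotientGroup.mk_surjective y
  have e : ∀ x, psiL (Fin 3) F (SemidirectProduct.inl (SpecialLinearGroup.toGL s)) x = x ↔
      Commute (QuotientGroup.mk s : PS F) x := fun x => by
    rw [psiL_inl_toGL, conj_fix]
    exact ⟨Commute.symm, Commute.symm⟩
  have k := congrArg Units.val (L3b.fix (L3b.hq_four _) ((e _).2 h))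
  refine (e _).1 (L3b.fix' (Units.ext ?_))
  rw [SemidirectProduct.left_inl, SemidirectProduct.right_inl, map_one, MulAut.one_apply, Units.val_mul,
    Units.val_mul, L3b.m0] at k ⊢
  have e1 := congrFun (congrFun k 0) 0
  have e2 := congrFun (congrFun k 0) 1
  have e3 := congrFun (congrFun k 0) 2
  have e4 := congrFun (congrFun k 1) 2
  simp [Matrix.mul_apply, Fin.sum_univ_three] at e1 e2 e3 e4
  ext i j
  fin_cases i <;> fin_cases j <;> simp [Matrix.mul_apply, Fin.sum_univ_three, e1, e2, e4]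
  linear_combination c * e3

/-- The unitriangular group lies in `Yp`. -/
theorem le_Y {p : ℕ} {l : Fˣ} (hl : l ^ p = 1) (h3 : l ^ 3 ≠ 1) :
    fq.range ≤ Yp p (MulAut.conj (fq (⟨0, 0, 1⟩ : U3.HQ F))) := by
  have l0 := l.ne_zero
  have hd := dq_conj l (l⁻¹ ^ 2)
  have h1 : Commute (dq (l, l⁻¹ ^ 2)) (fq (⟨0, 0, 1⟩ : U3.HQ F)) := by
    rw [Commute, SemiconjBy, ← mul_inv_eq_iff_eq_mul, hd]
    congr 1
    ext <;> simp
    field_simp
  have h2 : dq (l, l⁻¹ ^ 2) ^ p = 1 := by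
    rw [← map_pow, Prod.pow_mk, hl, ← pow_mul, mul_comm, pow_mul, inv_pow, hl, inv_one, one_pow]
    exact map_one _
  have k : ∀ x : U3.HQ F, fq (x * (⟨l ^ 3 * x.a, (l⁻¹ : Fˣ) ^ 3 * x.b, x.c⟩ : U3.HQ F)⁻¹) ∈
      Yp p (MulAut.conj (fq (⟨0, 0, 1⟩ : U3.HQ F))) := fun x => by
    have e : fq (⟨l ^ 3 * x.a, (l⁻¹ : Fˣ) ^ 3 * x.b, x.c⟩ : U3.HQ F) =
        dq (l, l⁻¹ ^ 2) * fq x * (dq (l, l⁻¹ ^ 2))⁻¹ := by
      rw [hd]
      congr 1
      ext <;> simp only [Units.val_pow_eq_pow_val, Units.val_inv_eq_inv_val] <;> field_simp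
    have e2 : fq x * (dq (l, l⁻¹ ^ 2) * fq x * (dq (l, l⁻¹ ^ 2))⁻¹)⁻¹ =
        fq x * dq (l, l⁻¹ ^ 2) * (fq x)⁻¹ * (dq (l, l⁻¹ ^ 2))⁻¹ := by group
    rw [map_mul, map_inv, e, e2]
    refine mul_mem (mem_Yp_conj ?_ (by rw [conj_pow, h2, mul_one, mul_inv_cancel])) (inv_mem (mem_Yp_conj h1 h2))
    exact ((z_comm 1 x).mul_left h1).mul_left (z_comm 1 x).inv_left
  have n1 : (1 : F) - l ^ 3 ≠ 0 := fun e => h3 (Units.ext (by simpa using (sub_eq_zero.1 e).symm))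
  have n2 : (1 : F) - (l⁻¹ : Fˣ) ^ 3 ≠ 0 := fun e => h3 (inv_eq_one.1 (Units.ext (by
    simpa using (sub_eq_zero.1 e).symm)))
  have ka : ∀ a : F, fq (⟨a, 0, 0⟩ : U3.HQ F) ∈ Yp p (MulAut.conj (fq (⟨0, 0, 1⟩ : U3.HQ F))) := fun a => by
    convert k ⟨a / (1 - l ^ 3), 0, 0⟩ using 2
    ext <;> simp
    field_simp
    ring
  have kb : ∀ b : F, fq (⟨0, b, 0⟩ : U3.HQ F) ∈ Yp p (MulAut.conj (fq (⟨0, 0, 1⟩ : U3.HQ F))) := fun b => by
    convert k ⟨0, b / (1 - (l⁻¹ : Fˣ) ^ 3), 0⟩ using 2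
    ext
    · simp
    · simp only [U3.HQ.mul_b, U3.HQ.inv_b]
      field_simp
      ring
    · simp
  rintro _ ⟨x, rfl⟩
  have e : x = ⟨0, x.b, 0⟩ * ⟨x.a, 0, 0⟩ * (⟨1, 0, 0⟩ * ⟨0, x.c, 0⟩ * (⟨1, 0, 0⟩ : U3.HQ F)⁻¹ *
      (⟨0, x.c, 0⟩ : U3.HQ F)⁻¹) := by
    ext <;> simp
  rw [e]
  simp only [map_mul, map_inv]
  exact mul_mem (mul_mem (kb _) (ka _)) (mul_mem (mul_mem (mul_mem (ka _) (kb _)) (inv_mem (ka _))) (inv_mem (kb _)))

omit [CharP F 2] in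
/-- An automorphism with trivial field-graph part and of order prime to 3 is inner. -/
theorem inn_of {γ : GammaL2 (Fin 3) F} (h1 : γ.right = 1) {m : ℕ} (hm : Nat.Coprime 3 m)
    (h : psiL (Fin 3) F γ ^ m = 1) : psiL (Fin 3) F γ ∈ Inn (PS F) := by
  have e : psiL (Fin 3) F γ = psiD (Fin 3) F γ.left := congrArg _ (SemidirectProduct.ext rfl h1)
  have h3 := L3a.cube_mem γ.left
  rw [← e] at h3
  obtain ⟨n, hn⟩ := exists_pow_eq_self_of_coprime (x := psiL (Fin 3) F γ) (n := 3)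
    (Nat.Coprime.coprime_dvd_right (orderOf_dvd_of_pow_eq_one h) hm)
  exact hn ▸ pow_mem h3 n

theorem cen {β : MulAut (PS F)} (b2 : Two β) (h : ∀ x : U3.HQ F, β (fq x) = fq x) :
    ∃ v ∈ ZZ F, β = MulAut.conj v := by
  obtain ⟨⟨g, σ, ε⟩, rfl⟩ := psiL_surjective (ι := Fin 3) (by simp) β
  obtain rfl : σ = 1 := L3a.right_eq (g := g) (ε := ε) fun a => by
    rw [L3b.tv]
    exact h _
  rcases c2_cases ε with rfl | rfl
  swap
  · exact (L3b.no_graph (h _) (h _)).elim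
  obtain ⟨j, hj⟩ := b2
  obtain ⟨v, hv⟩ := inn_of rfl (Nat.Coprime.pow_right j (by norm_num)) hj
  have v2 : Two v := ⟨j, conj_inj center_bot (by rw [map_pow, hv, hj, map_one])⟩
  have vc : v ∈ CC (fq (F := F)).range := mem_CC.2 (by
    rintro _ ⟨x, rfl⟩
    exact conj_fix.1 (hv ▸ h x))
  exact ⟨v, ZZ_eq (F := F) ▸ ⟨HK.mem_U syl v2 vc, vc⟩, hv.symm⟩

theorem sty (hF : 2 < Fintype.card F) {p : ℕ} {l : Fˣ} (hl : l ^ p = 1) (h3 : l ^ 3 ≠ 1) :
    STy p (fq (⟨0, 0, 1⟩ : U3.HQ F)) (ZZ F) := by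
  have hU := le_Y hl h3
  refine ⟨z_ord one_ne_zero, ?_, (ZZ_eq (F := F)).le.trans (inf_le_left.trans hU), ?_,
    fun β b2 h => cen b2 fun x => h _ (hU ⟨x, rfl⟩), ?_, by rwa [card_ZZ, Nat.card_eq_fintype_card],
    ⊤, inferInstance, le_top, fun β _ => ?_, ?_⟩
  · rintro _ ⟨c, rfl⟩
    exact z_sq _
  · rintro _ ⟨c, rfl⟩
    exact mem_CC.2 fun y hy => cz (mem_C1.1 (Yp_le_C1 _ _ hy)) _
  · intro a ha b hb a1 b1
    obtain ⟨a, rfl⟩ := mem_ZZ.1 ha
    obtain ⟨b, rfl⟩ := mem_ZZ.1 hb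
    have a0 : a ≠ 0 := fun e => a1 (by rw [e]; exact map_one fq)
    have b0 : b ≠ 0 := fun e => b1 (by rw [e]; exact map_one fq)
    refine ⟨dq (1, Units.mk0 (b / a) (div_ne_zero b0 a0)), ?_, ?_⟩
    · refine mem_normalizer_fintype ?_
      intro v hv
      obtain ⟨c, rfl⟩ := mem_ZZ.1 hv
      rw [dq_conj]
      exact mem_ZZ.2 ⟨_, congrArg fq (U3.HQ.ext (by simp) (by simp) rfl)⟩
    · rw [dq_conj]
      congr 1
      ext <;> simp [a0]
  · obtain ⟨g, -, hg⟩ := (syl (F := F)).exists_conj ((syl (F := F)).two.map β.toMonoidHom) le_top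
    let δ := MulAut.conj g * β
    have h1 : (fq (F := F)).range.map δ.toMonoidHom = fq.range := eq_of_le_of_card_ge
      (by rintro _ ⟨u, hu, rfl⟩; exact hg _ ⟨u, hu, rfl⟩) (card_map_of_injective δ.injective).ge
    refine ⟨g⁻¹, eq_of_le_of_card_ge ?_ ((card_map_conj _ _).trans (card_map_of_injective β.injective).symm).le⟩
    rintro _ ⟨v, hv, rfl⟩
    refine ⟨δ v, ?_, by simp [δ, mul_assoc]⟩
    rw [ZZ_eq] at hv ⊢
    refine ⟨h1.le ⟨v, hv.1, rfl⟩, mem_CC.2 fun u hu => ?_⟩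
    obtain ⟨w, hw, rfl⟩ := h1.ge hu
    exact (comm_of_CC hv.2 hw).map δ
  · obtain ⟨k, hk⟩ := L3a.card_eq (F := F)
    rw [index_top, one_mul, card_ZZ, hk]
    intro h
    have k0 : k ≠ 0 := by
      rintro rfl
      rw [Nat.card_eq_fintype_card] at hk
      omega
    refine (syl (F := F)).idx (relIndex_top_right (fq (F := F)).range ▸
      ((dvd_pow_self 2 k0).trans h).trans (index_dvd_of_le ((le_centralizer_iff.1 ?_).trans (CC_le_NN _))))
    exact (ZZ_eq (F := F)).le.trans inf_le_right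

theorem good (hF : 2 < Fintype.card F) {p : ℕ} {l : Fˣ} (hl : l ^ p = 1) (h3 : l ^ 3 ≠ 1) {y : PS F}
    (hy : orderOf y = 2) : Good p y := by
  obtain ⟨g, rfl⟩ := isConj_iff.1 (psl_three_isConj_of_invol (z_ord (one_ne_zero (α := F))) hy)
  exact Or.inl ⟨_, HK.sty_conj (sty hF hl h3) g⟩

end L3K

end Cfsg.Agent.QS
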