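import Mathlib
import Cfsg.Agent.QS.HK
import Cfsg.Agent.GT.PElementClosure
import Cfsg.Agent.GT.PGroupElemAb
import Cfsg.Agent.GT.PGroupBasic
import Cfsg.Agent.Loc.MssSyl

/-! # S1817: generic tools for the groups of Lie type -/

set_option autoImplicit false
set_option linter.unusedVariables false
set_option linter.unusedSectionVars false

namespace Cfsg.Agent.QS

open Cfsg Subgroup Cfsg.Agent.GT Cfsg.Agent.Inv Cfsg.Agent.Cmp Cfsg.Agent.QE Cfsg.Agent.QF
open scoped commutatorElement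

variable {X : Type*} [Group X] [Finite X] {p : ℕ}

namespace LG

/-- Two commuting elements of order `p`. -/
theorem pair (hp : p.Prime) {x y : X} (hx : x ^ p = 1) (hy : y ^ p = 1) (x1 : x ≠ 1) (h : Commute x y)
    (hn : y ∉ zpowers x) :
    IsElementaryAbelian p (zpowers x ⊔ zpowers y) ∧ Nat.card (zpowers x ⊔ zpowers y : Subgroup X) = p ^ 2 := by
  have := Fact.mk hp
  have hc : y ∈ CC (zpowers x) := by
    rintro _ ⟨n, rfl⟩
    exact (h.zpow_left n).eq
  refine ⟨(IsElementaryAbelian.zpowers hx).sup_zpowers hy hc, ?_⟩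
  rw [PG.card_sup_zpowers hp (CC_le_NN _ hc) hn (hy ▸ one_mem _), Nat.card_zpowers, orderOf_eq_prime hx x1, pow_two]

/-- A good prime from an elementary abelian subgroup fixed by representatives of the outer automorphisms. -/
theorem gp_of (hZ : center X = ⊥) (hp : p.Prime) (h2 : p ≠ 2) {A : Subgroup X} (hA : IsElementaryAbelian p A)
    (hc : p ^ 2 ≤ Nat.card A) (h : ∀ φ : MulAut X, φ ^ p = 1 → φ ∉ Inn X →
      ∃ x : X, (MulAut.conj x * φ) ^ p = 1 ∧ ∀ a ∈ A, (MulAut.conj x * φ) a = a) : Gp X p := by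
  refine ⟨hp, h2, ⟨A, hA.1, hA.2, hc⟩, fun φ h1 h3 => ?_⟩
  obtain ⟨x, k1, k2⟩ := h φ h1 h3
  set ψ := MulAut.conj x * φ with hψ
  have e1 : IsElementaryAbelian p (A.map (MulAut.conj : X →* MulAut X)) := ⟨by have := hA.1; infer_instance, by
    rintro _ ⟨a, ha, rfl⟩
    rw [← map_pow, hA.2 a ha, map_one]⟩
  have cA : ψ ∈ CC (A.map (MulAut.conj : X →* MulAut X)) := by
    rintro _ ⟨a, ha, rfl⟩
    have := aut_conj ψ a
    rw [k2 a ha, mul_inv_eq_iff_eq_mul] at this
    exact this.symm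
  have e2 := e1.sup_zpowers k1 cA
  have hle : A.map MulAut.conj ⊔ zpowers ψ ≤ Inn X ⊔ zpowers φ :=
    sup_le ((map_le_range _ _).trans le_sup_left)
      (zpowers_le.2 (mul_mem (mem_sup_left ⟨x, rfl⟩) (mem_sup_right (mem_zpowers φ))))
  have hn : ψ ∉ A.map MulAut.conj := fun k => h3 (by
    have := mul_mem (inv_mem (show MulAut.conj x ∈ Inn X from ⟨x, rfl⟩)) (map_le_range _ _ k)
    rwa [hψ, inv_mul_cancel_left] at this)
  refine ⟨(A.map MulAut.conj ⊔ zpowers ψ).subgroupOf _, by have := e2.1; infer_instance,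
    fun a ha => Subtype.ext (e2.2 a ha), ?_⟩
  rw [Nat.card_congr (subgroupOfEquivOfLe hle).toEquiv, PG.card_sup_zpowers hp (CC_le_NN _ cA) hn (k1 ▸ one_mem _),
    card_map_of_injective (conj_inj hZ), pow_succ']
  exact Nat.mul_le_mul_left p hc

theorem conj_Yp (p : ℕ) (a g : X) : Yp p (MulAut.conj (g * a * g⁻¹)) = Yp p (MulAut.conj a) ^ᶜ g := by
  rw [map_Yp_equiv, ← k0_conj]
  rfl

theorem C1_le_NN (p : ℕ) (a : X) : C1 a ≤ NN (Yp p (MulAut.conj a)) := fun g hg => by
  rw [← map_conj_eq_self_iff, ← conj_Yp, (mem_C1.1 hg).eq, mul_inv_cancel_right]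

/-- A perfect subgroup that is a 2-group modulo `Y` lies in `Y`. -/
theorem perf_le {D Y U : Subgroup X} (hD : D ≤ ⁅D, D⁆) (hU : IsPGroup 2 U) (hn : U ≤ NN Y) (h : D ≤ Y ⊔ U) :
    D ≤ Y := by
  have := Loc.Mss.res_le_of_le_sup hn hU h
  rwa [pResidualOf_eq_self_of_perfect Nat.prime_two (le_antisymm (commutator_le_self D) hD)] at this

theorem aty_map {Y : Type*} [Group Y] [Finite Y] (e : X ≃* Y) {a : X} (h : ATy p a) : ATy p (e a) := by
  obtain ⟨⟨U, k⟩, h2⟩ := h
  refine ⟨⟨U.map e.toMonoidHom, (e.orderOf_eq a).trans k.a2, ⟨le_top, k.syl.two.map _, ?_⟩, ⟨a, k.mem, rfl⟩,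
    map_C1 e a ▸ map_mono k.cen, ?_, fun D hD hf => ?_⟩, fun β b2 b1 hb => ?_⟩
  · have := k.syl.idx
    rwa [relIndex_top_right, ← index_map_of_bijective (f := e.toMonoidHom) e.bijective, ← relIndex_top_right] at this
  · rintro _ ⟨v, hv, rfl⟩ h1 h3
    refine (k.uni v hv (fun u hu => e.injective ?_) (e.injective ?_)).imp (fun k => by rw [k, map_one])
      fun k => by rw [k]; rfl
    · rw [map_mul, map_mul]
      exact h1 _ ⟨u, hu, rfl⟩
    · rw [map_mul, map_one]
      exact h3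
  · have := k.lt (D.map (MulAut.congr e).symm.toMonoidHom) (hD.map _) (by
      rintro _ ⟨β, hβ, rfl⟩ u hu
      obtain ⟨β, rfl⟩ := (MulAut.congr e).surjective β
      refine e.injective ?_
      rw [MulEquiv.coe_toMonoidHom, MulEquiv.symm_apply_apply, ← k0_app]
      exact hf _ hβ _ ⟨u, hu, rfl⟩)
    rwa [card_map_of_injective (MulAut.congr e).symm.injective,
      ← card_map_of_injective (f := e.toMonoidHom) e.injective] at this
  · obtain ⟨β, rfl⟩ := (MulAut.congr e).surjective β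
    rw [k0_conj] at hb ⊢
    rw [← map_Yp_equiv, ← map_Yp_equiv] at hb
    rw [h2 β ((MulAut.congr e).injective (by rw [map_mul, b2, map_one])) (fun k => b1 (by rw [k, map_one]))
      (map_injective e.injective hb)]

theorem good_conj {a : X} (h : Good p a) (g : X) : Good p (g * a * g⁻¹) :=
  h.imp (fun ⟨Z, k⟩ => ⟨_, HK.sty_conj k g⟩) fun k => aty_map (MulAut.conj g) k

/-- A homomorphism to a cyclic group kills a perfect subgroup. -/
theorem kill {H C : Type*} [Group H] [Group C] [IsCyclic C] (f : H →* C) {P : Subgroup H} (hP : P ≤ ⁅P, P⁆) :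
    P ≤ f.ker := hP.trans (commutator_le.2 fun a _ b _ => by
  let _ := IsCyclic.commGroup (α := C)
  rw [MonoidHom.mem_ker, map_commutatorElement, commutatorElement_eq_one_iff_mul_comm]
  exact mul_comm _ _)

/-- The same for a subgroup of the fixed points. -/
theorem kill_fix {β : MulAut X} {C : Type*} [Group C] [IsCyclic C] (f : fixedSubgroup β →* C) {P : Subgroup X}
    (hP : P ≤ ⁅P, P⁆) (h : P ≤ fixedSubgroup β) {y : X} (hy : y ∈ P) : f ⟨y, h hy⟩ = 1 := by
  refine kill f (P := P.subgroupOf _) ?_ hy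
  rw [← map_le_map_iff_of_injective (fixedSubgroup β).subtype_injective, Subgroup.map_commutator,
    subgroupOf_map_subtype, inf_eq_left.2 h]
  exact hP

end LG

end Cfsg.Agent.QS
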