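import Mathlib
import Cfsg.Agent.QS.KD

/-! # S1817, the case `L₂(p)`, `p ≥ 17`: the facts used -/

set_option autoImplicit false
set_option linter.unusedVariables false

namespace Cfsg.Agent.QS

open Cfsg Subgroup Cfsg.Agent.GT Cfsg.Agent.Inv Cfsg.Agent.Cmp Cfsg.Agent.QE Cfsg.Agent.QF
open scoped commutatorElement

universe u

/-- The facts used about `L₂(p)`, `p ≥ 17` a Fermat or Mersenne prime. -/
structure PX (X : Type*) [Group X] : Prop where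
  zen : center X = ⊥
  o2 : ∀ α β : MulAut X, α ∈ Inn X ∨ β ∈ Inn X ∨ α * β ∈ Inn X
  one : ∀ a b : X, orderOf a = 2 → orderOf b = 2 → IsConj a b
  a0 : ∀ a : X, orderOf a = 2 → A0 a (C1 a)
  f3 : ∀ a : X, orderOf a = 2 → ∀ β : MulAut X, β * β = 1 → β a = a →
    (∀ u ∈ C1 a, (β u * u⁻¹) * (β u * u⁻¹) = 1) → β = 1 ∨ β = MulAut.conj a
  f4 : ∀ a : X, orderOf a = 2 → ∀ β : MulAut X, β * β = 1 → β ∉ Inn X → β a = a →
    ∀ u : X, u * u = 1 → Commute u a → β u = u → u = 1 ∨ u = a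
  f5 : ∀ a : X, orderOf a = 2 → ∀ β γ : MulAut X, β * β = 1 → γ * γ = 1 → β ∉ Inn X → γ ∉ Inn X →
    β a = a → γ a = a → ∃ g : X, MulAut.conj g * β * (MulAut.conj g)⁻¹ = γ

variable {G : Type*} [Group G]

/-- `PX` in terms of the ambient group. -/
structure PG (A : Subgroup G) : Prop where
  zen : A ⊓ CC A = ⊥
  o2 : ∀ x ∈ NN A, ∀ y ∈ NN A, In A x ∨ In A y ∨ In A (x * y)
  one : ∀ a ∈ A, ∀ b ∈ A, orderOf a = 2 → orderOf b = 2 → IsConj a b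
  a0 : ∀ a ∈ A, orderOf a = 2 → A0G A a (A ⊓ C1 a)
  f3 : ∀ a ∈ A, orderOf a = 2 → ∀ x ∈ NN A, x * x = 1 → Commute x a →
    (∀ u ∈ A ⊓ C1 a, ⁅x, u⁆ * ⁅x, u⁆ = 1) → x ∈ CC A ∨ x * a⁻¹ ∈ CC A
  f4 : ∀ a ∈ A, orderOf a = 2 → ∀ x ∈ NN A, x * x = 1 → ¬ In A x → Commute x a →
    ∀ u ∈ A, u * u = 1 → Commute u a → Commute u x → u = 1 ∨ u = a
  f5 : ∀ a ∈ A, orderOf a = 2 → ∀ x ∈ NN A, ∀ u ∈ A, x * x = 1 → u * x * (u * x) = 1 → ¬ In A x →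
    Commute x a → Commute u a → ∃ g ∈ A, g * x * g⁻¹ = u * x

end Cfsg.Agent.QS
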