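import Mathlib
import Cfsg.Agent.QS.P0
import Cfsg.Agent.QE.TyP

/-! # S1817, piece QS-P3: `PX` for `L₂(p)`, `p ≥ 17`

Proof. `Aut X = PGL₂(F)` by `QE.typTh` (`typ_inj, typ_surj, typ_inn, typ_fix, typ_th_emb`), `Inn X` is `psl F`
(index 2: o2).  one, zen, `ci` from `ty_lp`.  Let `a ∈ psl F` be an involution, `T = tor a = ⟨t⟩`, cyclic
(`isCyclic_tor`) of order `n = 2 ^ k ≥ 16` (`typ_arith`, `card_torS_of_orderOf_two`: `|T ⊓ psl| = n / 2`, so `t ∉ psl`,
`T ⊓ psl = ⟨t ^ 2⟩`).  An element of `W = C(a)` in `PGL₂` is in `T` or inverts `T`; the product of two elements of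
`W \ T` is in `T`; some `s ∈ psl` is in `W \ T`; `v ∈ T`, `v ^ 2 = 1` gives `v ∈ {1, a}`.
* a0: `C1 a` is a 2-group (`ci`) containing a Sylow subgroup (one class); uni: `v ∉ T` inverts and centralizes `t ^ 2`, so
  `t ^ 4 = 1`; lt: `d` centralizes `a`, `t ^ 2`, `s`, so `d ∈ T`, `d = d⁻¹`, `D ≤ {1, a}`, and `t ^ 2 ∈ C1 a` has order `≥ 8`.
* f3: `β ∉ T` gives `β(t ^ 2) t⁻² = t⁻⁴`, of order `≥ 4`.
* f4: `β ∉ T` (as `β ∉ psl`); `u ∉ T` gives `u β ∈ T` of order `≤ 2`, so `β ∈ psl`.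
* f5: `γ β⁻¹ ∈ T ⊓ psl` is `t ^ (2 j)`, `t ^ j β t ^ (-j) = t ^ (2 j) β = γ`; use `t ^ j` or `t ^ j β`, whichever is in `psl`. -/

set_option autoImplicit false
set_option linter.unusedVariables false

namespace Cfsg.Agent.QS

open Cfsg Subgroup Cfsg.Agent.GT Cfsg.Agent.Inv Cfsg.Agent.Cmp Cfsg.Agent.QE Cfsg.Agent.QF
open scoped commutatorElement

universe u

section

open Cfsg.Agent.Cl.L2
open scoped MatrixGroups

variable {F : Type} [Field F]

theorem P3_inv (h2 : (2 : F) ≠ 0) {a h : PGL(2, F)} (ha : orderOf a = 2) (hh : h ∈ tor a) (e : h * h = 1) :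
    h = 1 ∨ h = a :=
  or_iff_not_imp_left.2 fun h1 => eq_of_mem_tor h2 ha (orderOf_eq_prime (by rwa [sq]) h1) hh

theorem P3_sq [Finite F] (h2 : (2 : F) ≠ 0) {a h : PGL(2, F)} (ha : tau a ≠ 4) (hh : h ∈ tor a) (hp : h ∈ psl F) :
    ∃ s ∈ tor a, h = s * s := by
  obtain ⟨t, ht⟩ := (isCyclic_tor ha).exists_generator
  have h1 : ∀ h ∈ tor a, ∃ j : ℤ, (t : PGL(2, F)) ^ j = h := fun h hh =>
    (ht ⟨h, hh⟩).imp fun j e => congrArg Subtype.val e
  have h3 : (t : PGL(2, F)) ∉ psl F := fun k => tor_not_le_psl h2 ha fun h hh => by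
    obtain ⟨j, rfl⟩ := h1 h hh
    exact zpow_mem k j
  obtain ⟨j, rfl⟩ := h1 h hh
  obtain ⟨i, rfl | rfl⟩ := Int.even_or_odd' j
  · exact ⟨_, zpow_mem t.2 i, by rw [two_mul, zpow_add]⟩
  · rw [zpow_add_one, two_mul, zpow_add] at hp
    exact absurd ((mul_mem_cancel_left (mul_self_mem_psl _)).1 hp) h3

theorem px_lp {F : Type} [Field F] [Fintype F] (hp : IsTwoPowerNeighbourPrime (Fintype.card F))
    (h17 : 17 ≤ Fintype.card F) : PX (Matrix.ProjectiveSpecialLinearGroup (Fin 2) F) := by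
  have hs := typ_surj hp.1
  have ty := ty_lp hp (by omega)
  have hN : Nat.card F = Fintype.card F := Nat.card_eq_fintype_card
  obtain ⟨k, hk, hq⟩ := typ_arith hp (by omega)
  rw [← hN] at hq h17
  have h2 : (2 : F) ≠ 0 := two_ne_zero_iff_odd.2 (by omega)
  have hsq : ∀ {c}, typTh F c * typTh F c = 1 → c * c = 1 := fun h => typ_inj (by rw [map_mul, h, map_one])
  have hA : ∀ {a : PSL(2, F)}, orderOf a = 2 → orderOf (emb a) = 2 := fun h => by rwa [orderOf_emb]
  have hT : ∀ {a : PSL(2, F)}, orderOf a = 2 → tau (emb a) ≠ 4 := fun h => tau_ne_four_of_two h2 (hA h)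
  have hn : ∀ {a : PSL(2, F)} {c}, orderOf a = 2 → typTh F c a = a → c ∈ ntor (emb a) := fun h e =>
    (mem_ntor_iff_commute h2 (hA h)).2 (typ_fix.1 e)
  have hc : ∀ {a : PSL(2, F)}, orderOf a = 2 → Nat.card (torS a) * 2 = 2 ^ k := fun h => by
    have := card_torS_of_orderOf_two h2 h
    omega
  have hr : ∀ {a : PSL(2, F)}, orderOf a = 2 → ∃ r ∈ C1 a, emb r ∈ tor (emb a) ∧ r ^ 4 ≠ 1 := fun {a} h => by
    obtain ⟨r, e⟩ := exists_zpowers_eq_torS (hT h)
    have m : r ∈ torS a := e ▸ mem_zpowers r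
    refine ⟨r, mem_C1.2 (comm_of_mem_torS m).symm, mem_torS.1 m, fun e4 => ?_⟩
    have h1 := Nat.le_of_dvd (by decide) (orderOf_dvd_of_pow_eq_one e4)
    have h3 := hc h
    rw [← e, Nat.card_zpowers] at h3
    omega
  have hi : ∀ {a r : PSL(2, F)} {c}, orderOf a = 2 → emb r ∈ tor (emb a) → c ∈ ntor (emb a) → c ∉ tor (emb a) →
      typTh F c r = r⁻¹ := fun h m h1 h3 =>
    emb_injective (by rw [typ_emb, map_inv, conj_eq_inv_of_mem_ntor (hT h) h1 h3 m])
  have h4 : ∀ {r : PSL(2, F)}, r = r⁻¹ → r ^ 4 = 1 := fun e => by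
    rw [show 4 = 2 * 2 from rfl, pow_mul, sq _, ← eq_inv_iff_mul_eq_one, ← inv_pow, ← e]
  have ho : ∀ {a c}, orderOf a = 2 → c * c = 1 → c ∉ psl F → c ∉ tor (emb a) := fun h e h1 m => by
    rcases P3_inv h2 (hA h) m e with rfl | rfl
    exacts [h1 (one_mem _), h1 (emb_mem_psl _)]
  have hv : ∀ {a v : PSL(2, F)}, orderOf a = 2 → v * v = 1 → emb v ∈ tor (emb a) → v = 1 ∨ v = a := fun h e m =>
    (P3_inv h2 (hA h) m (by rw [← map_mul, e, map_one])).imp (fun k => emb_injective (k.trans (map_one _).symm))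
      fun k => emb_injective k
  refine ⟨?_, fun α β => ?_, ty.one, fun a ha => ?_, fun a ha β b2 ba h => ?_, fun a ha β b2 bi ba u u2 ua bu => ?_,
    fun a ha β γ b2 c2 bi ci ba ca => ?_⟩
  · haveI := ty.simple
    refine (inferInstance : (center PSL(2, F)).Normal).eq_bot_or_eq_top.resolve_right fun e => ty.nab ⟨⟨fun a b => ?_⟩⟩
    exact mem_center_iff.1 (e ▸ mem_top b) a
  · obtain ⟨a, rfl⟩ := hs α
    obtain ⟨b, rfl⟩ := hs β
    rw [← map_mul, typ_inn, typ_inn, typ_inn]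
    exact or_iff_not_imp_left.2 fun h1 => or_iff_not_imp_left.2 fun h3 => mul_mem_psl_of_not_mem h1 h3
  · have cc : Nat.card (C1 a) = 2 ^ k := by
      rw [C1, centralizer_eq_ntorS_of_orderOf h2 ha, card_ntorS (hT ha), mul_comm, hc ha]
    obtain ⟨r, r1, r2, r4⟩ := hr ha
    refine ⟨ha, ⟨le_top, IsPGroup.of_card cc, ?_⟩, mem_C1.2 rfl, le_rfl, fun v v1 v2 v3 => hv ha v3 ?_, fun D _ hD => ?_⟩
    · rw [relIndex_top_right]
      rintro ⟨m, hm⟩
      have e := card_PSL_two h2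
      rw [← (C1 a).card_mul_index, cc, hm] at e
      have p0 : 0 < 2 ^ k := by positivity
      rcases hq with ⟨b1, b2, -⟩ | ⟨b1, b2, -⟩
      · rw [b2, mul_assoc (2 ^ k), mul_comm (Nat.card F), mul_assoc (2 ^ k)] at e
        have e' := Nat.eq_of_mul_eq_mul_left p0 e
        have := congrArg (· % 4) e'
        simp only [Nat.mul_mod (Nat.card F), Nat.add_mod (Nat.card F), b1] at this
        omega
      · rw [b2, mul_assoc (2 ^ k), mul_comm _ (2 ^ k)] at e
        have e' := Nat.eq_of_mul_eq_mul_left p0 e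
        have := congrArg (· % 4) e'
        have b3 : (Nat.card F - 1) % 4 = 2 := by omega
        simp only [Nat.mul_mod (Nat.card F), b1, b3] at this
        omega
    · by_contra m
      have := hi ha r2 ((mem_ntor_iff_commute h2 (hA ha)).2 ((mem_C1.1 v1).map emb)) m
      rw [typ_fix.2 ((mem_CC.1 v2 r r1).symm.map emb)] at this
      exact r4 (h4 this)
    · obtain ⟨s, s1, s2, s3⟩ := exists_mem_ntor_psl (hT ha)
      obtain ⟨s, rfl⟩ := exists_emb_of_mem s1
      have hle : D ≤ zpowers (typTh F (emb a)) := fun β hβ => by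
        obtain ⟨c, rfl⟩ := hs β
        have m : c ∈ tor (emb a) := by_contra fun m => r4 (h4 ((hD _ hβ r r1).symm.trans
          (hi ha r2 (hn ha (hD _ hβ a (mem_C1.2 rfl))) m)))
        have e := conj_eq_inv_of_mem_ntor (hT ha) s2 s3 m
        rw [← (typ_fix.1 (hD _ hβ s (mem_C1.2 (emb_injective (by
          rw [map_mul, map_mul]; exact (mem_ntor_iff_commute h2 (hA ha)).1 s2))))).eq, mul_inv_cancel_right] at e
        rcases P3_inv h2 (hA ha) m (eq_inv_iff_mul_eq_one.1 e) with rfl | rfl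
        exacts [map_one (typTh F) ▸ one_mem _, mem_zpowers _]
      have := card_le_of_le hle
      rw [Nat.card_zpowers, orderOf_injective _ typ_inj, hA ha] at this
      omega
  · obtain ⟨c, rfl⟩ := hs β
    obtain ⟨r, r1, r2, r4⟩ := hr ha
    by_cases m : c ∈ tor (emb a)
    · exact (P3_inv h2 (hA ha) m (hsq b2)).imp (fun e => by rw [e, map_one]) fun e => by rw [e, typ_th_emb]
    · have := h r r1
      rw [hi ha r2 (hn ha ba) m] at this
      exact absurd (inv_eq_one.1 (by rw [← this]; group)) r4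
  · obtain ⟨c, rfl⟩ := hs β
    rw [typ_inn] at bi
    refine hv ha u2 (by_contra fun m => bi ?_)
    have k := mul_mem_tor_of_not_mem (hT ha) ((mem_ntor_iff_commute h2 (hA ha)).2 (ua.map emb)) m (hn ha ba)
      (ho ha (hsq b2) bi)
    rw [← mul_mem_cancel_left (emb_mem_psl u)]
    rcases P3_inv h2 (hA ha) k (by
      rw [(typ_fix.1 bu).mul_mul_mul_comm, ← map_mul, u2, map_one, hsq b2, mul_one]) with e | e <;> rw [e]
    exacts [one_mem _, emb_mem_psl _]
  · obtain ⟨c, rfl⟩ := hs β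
    obtain ⟨d, rfl⟩ := hs γ
    rw [typ_inn] at bi ci
    have c1 := ho ha (hsq b2) bi
    obtain ⟨s, s1, e⟩ := P3_sq h2 (hT ha) (mul_mem_tor_of_not_mem (hT ha) (hn ha ca) (ho ha (hsq c2) ci) (hn ha ba) c1)
      (mul_mem_psl_of_not_mem ci bi)
    have e1 : s * c * s⁻¹ = d := by
      rw [← conj_eq_inv_of_mem_ntor (hT ha) (hn ha ba) c1 s1, ← mul_assoc, ← mul_assoc, mul_assoc s c, hsq b2, mul_one,
        ← e, mul_inv_cancel_right]
    have k : ∀ g ∈ psl F, g * c * g⁻¹ = d → ∃ g : PSL(2, F),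
        MulAut.conj g * typTh F c * (MulAut.conj g)⁻¹ = typTh F d := fun g hg e => by
      obtain ⟨g, rfl⟩ := exists_emb_of_mem hg
      exact ⟨g, by rw [← typ_th_emb, ← map_inv, ← map_mul, ← map_mul, e]⟩
    by_cases m : s ∈ psl F
    · exact k s m e1
    · exact k _ (mul_mem_psl_of_not_mem m bi) (by rw [← e1]; group)

end

end Cfsg.Agent.QS
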